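import Cfsg.Agent.H10.J1.Simple

/-!
J1 has no subgroup of odd order divisible by `7 * 11 * 19`.
-/

set_option autoImplicit false
set_option maxRecDepth 4000
set_option maxHeartbeats 1000000

namespace Cfsg.Agent.H68.WeakJ1

open Cfsg

/-- An element of order eleven of J1 is centralised only by its powers. -/
theorem centralizer_eleven {x : Spor.J1} (hx : orderOf x = 11) {g : Spor.J1}
    (hg : g * x = x * g) : g ∈ Subgroup.zpowers x := by
  have : Fact (Nat.Prime 11) := ⟨by norm_num⟩
  have : Finite Spor.J1 := Nat.finite_of_card_ne_zero (by rw [H10.J1.card_J1]; norm_num)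
  have hf : 11 = 11 ^ (Nat.card Spor.J1).factorization 11 := by
    rw [H10.J1.card_J1, show (175560 : ℕ) = 11 ^ 1 * 15960 by norm_num,
      Nat.factorization_mul_of_coprime (by norm_num : Nat.Coprime (11 ^ 1) 15960),
      Finsupp.add_apply, Nat.Prime.factorization_pow (by norm_num : Nat.Prime 11),
      Finsupp.single_eq_same, Nat.factorization_eq_zero_of_not_dvd (by norm_num : ¬ 11 ∣ 15960)]
    norm_num
  let P : Sylow 11 Spor.J1 := Sylow.ofCard (Subgroup.zpowers x) (by rw [Nat.card_zpowers, hx, ← hf])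
  let Q : Sylow 11 Spor.J1 := Sylow.ofCard (Subgroup.zpowers (H10.J1.toJ H10.J1.mZ))
    (by rw [Nat.card_zpowers, H10.J1.orderOf_Z, ← hf])
  obtain ⟨c, hc⟩ := MulAction.exists_smul_eq Spor.J1 P Q
  have hx' : c * x * c⁻¹ ∈ Subgroup.zpowers (H10.J1.toJ H10.J1.mZ) := by
    have h : c * x * c⁻¹ ∈ (Q : Subgroup Spor.J1) := by
      rw [← hc, Sylow.coe_subgroup_smul]
      exact ⟨x, Subgroup.mem_zpowers x, rfl⟩
    exact h
  have hord : orderOf (c * x * c⁻¹) = 11 :=
    (orderOf_injective (MulAut.conj c).toMonoidHom (MulAut.conj c).injective x).trans hx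
  have heq : Subgroup.zpowers (c * x * c⁻¹) = Subgroup.zpowers (H10.J1.toJ H10.J1.mZ) :=
    Subgroup.eq_of_le_of_card_ge (Subgroup.zpowers_le.mpr hx')
      (by rw [Nat.card_zpowers, Nat.card_zpowers, hord, H10.J1.orderOf_Z])
  have hcomm : Commute (c * g * c⁻¹) (c * x * c⁻¹) := by
    show _ * _ = _ * _
    rw [conj_mul, conj_mul, hg]
  obtain ⟨i, hi⟩ : H10.J1.toJ H10.J1.mZ ∈ Subgroup.zpowers (c * x * c⁻¹) :=
    heq ▸ Subgroup.mem_zpowers _
  have h1 := H10.J1.centralizer_Z (g := c * g * c⁻¹) (by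
    rw [← hi]; exact (hcomm.zpow_right i).eq)
  rw [← heq] at h1
  obtain ⟨j, hj⟩ := h1
  refine ⟨j, ?_⟩
  simp only [conj_zpow] at hj
  exact mul_left_cancel (mul_right_cancel hj)

theorem eleven_count : ∀ n ∈ Nat.divisors 1995, n % 11 = 1 → n = 1 ∨ n = 133 := by decide +kernel

theorem seven_count : ∀ n ∈ Nat.divisors 1045, n % 7 = 1 → n = 1 := by decide +kernel

/-- J1 has no subgroup of odd order divisible by 1463. -/
theorem no_odd_subgroup (K : Subgroup Spor.J1) (h2 : ¬ 2 ∣ Nat.card K)
    (hd : 1463 ∣ Nat.card K) : False := by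
  classical
  have : Finite Spor.J1 := Nat.finite_of_card_ne_zero (by rw [H10.J1.card_J1]; norm_num)
  have : Fact (Nat.Prime 3) := ⟨Nat.prime_three⟩
  have : Fact (Nat.Prime 7) := ⟨by norm_num⟩
  have : Fact (Nat.Prime 11) := ⟨by norm_num⟩
  have : Fact (Nat.Prime 19) := ⟨by norm_num⟩
  obtain ⟨k, hk⟩ := hd
  have hk120 : k ∣ 120 := by
    have h := Subgroup.card_subgroup_dvd_card K
    rw [hk, H10.J1.card_J1, show (175560 : ℕ) = 1463 * 120 by norm_num] at h
    exact Nat.dvd_of_mul_dvd_mul_left (by norm_num) h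
  have hk15 : k ∣ 15 := by
    have hcop : Nat.Coprime k 8 := by
      rw [show (8 : ℕ) = 2 ^ 3 by norm_num]
      refine Nat.Coprime.pow_right 3 (Nat.Coprime.symm ?_)
      exact (Nat.Prime.coprime_iff_not_dvd Nat.prime_two).mpr fun h =>
        h2 (hk ▸ Dvd.dvd.mul_left h _)
    exact hcop.dvd_of_dvd_mul_left (show k ∣ 8 * 15 from hk120)
  have hkpos : 0 < k := Nat.pos_of_dvd_of_pos hk15 (by norm_num)
  have hkle : k ≤ 15 := Nat.le_of_dvd (by norm_num) hk15
  -- a commuting pair of coprime prime orders is impossible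
  have hno : ∀ (x w : K) (q : ℕ), orderOf x = 11 → orderOf w = q → ¬ q ∣ 11 →
      ¬ w * x = x * w := by
    intro x w q hx hw hq hc
    have h := centralizer_eleven (x := (x : Spor.J1)) (by rw [Subgroup.orderOf_coe, hx])
      (g := (w : Spor.J1)) (congrArg Subtype.val hc)
    have h' := Subgroup.orderOf_dvd_natCard _ h
    rw [Nat.card_zpowers, Subgroup.orderOf_coe, Subgroup.orderOf_coe, hx, hw] at h'
    exact hq h'
  obtain ⟨P⟩ := (inferInstance : Nonempty (Sylow 11 K))
  have hP : Nat.card (P : Subgroup K) = 11 := by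
    rw [Sylow.card_eq_multiplicity, hk, show 1463 * k = 11 ^ 1 * (133 * k) by ring,
      Nat.factorization_mul_of_coprime ?_, Finsupp.add_apply,
      Nat.Prime.factorization_pow (by norm_num : Nat.Prime 11), Finsupp.single_eq_same,
      Nat.factorization_eq_zero_of_not_dvd (n := 133 * k) ?_]
    · norm_num
    · interval_cases k <;> first | omega | norm_num
    · interval_cases k <;> first | omega | norm_num
  have hPidx : (P : Subgroup K).index = 133 * k := by
    have h := (P : Subgroup K).card_mul_index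
    rw [hP, hk] at h
    omega
  have hPord : ∀ x ∈ (P : Subgroup K), x ≠ 1 → orderOf x = 11 := fun x hx h1 => by
    have h := Subgroup.orderOf_dvd_natCard _ hx
    rw [hP] at h
    exact ((Nat.dvd_prime (by norm_num)).mp h).resolve_left fun e => h1 (orderOf_eq_one_iff.mp e)
  -- nothing of prime order 3 or 19 normalises `P`
  have hnorm : ∀ (q : ℕ) [Fact q.Prime], ¬ q ∣ 11 → 11 % q ≠ 1 → ∀ w : K, orderOf w = q →
      w ∉ Subgroup.normalizer ((P : Subgroup K) : Set K) := by
    intro q _ hq hq1 w hw hwN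
    obtain ⟨x, hx, hx1, hc⟩ := H10.J1.exists_commute_of_normalizes hw hwN (by rwa [hP])
    exact hno x w q (hPord x hx hx1) hw hq hc.symm
  have hn11 : Nat.card (Sylow 11 K) = 133 := by
    have h1 : Nat.card (Sylow 11 K) ∣ 1995 := by
      refine (hPidx ▸ P.card_dvd_index).trans ?_
      rw [show (1995 : ℕ) = 133 * 15 by norm_num]
      exact Nat.mul_dvd_mul_left 133 hk15
    rcases eleven_count _ (Nat.mem_divisors.mpr ⟨h1, by norm_num⟩)
      (card_sylow_modEq_one 11 K) with h | h
    · have : Subsingleton (Sylow 11 K) := (Nat.card_eq_one_iff_unique.mp h).1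
      have hn : (P : Subgroup K).Normal := Sylow.normal_of_subsingleton P
      obtain ⟨w, hw⟩ := exists_prime_orderOf_dvd_card' (G := K) 19
        (by rw [hk]; exact Dvd.dvd.mul_right (by norm_num) k)
      exact absurd (by rw [Subgroup.normalizer_eq_top]; exact Subgroup.mem_top w)
        (hnorm 19 (by norm_num) (by norm_num) w hw)
    · exact h
  have hk5 : k ∣ 5 := by
    have hN : Nat.card ↥(Subgroup.normalizer ((P : Subgroup K) : Set K)) = 11 * k := by
      have h1 : (Subgroup.normalizer ((P : Subgroup K) : Set K)).index = 133 :=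
        P.card_eq_index_normalizer.symm.trans hn11
      have h2 := (Subgroup.normalizer ((P : Subgroup K) : Set K)).card_mul_index
      rw [h1, hk] at h2
      omega
    have h3 : ¬ 3 ∣ k := by
      intro h3
      obtain ⟨w, hw⟩ := exists_prime_orderOf_dvd_card'
        (G := Subgroup.normalizer ((P : Subgroup K) : Set K)) 3 (by rw [hN]; exact h3.mul_left _)
      exact hnorm 3 (by norm_num) (by norm_num) w (by rw [Subgroup.orderOf_coe, hw]) w.2
    exact ((Nat.Prime.coprime_iff_not_dvd Nat.prime_three).mpr h3).symm.dvd_of_dvd_mul_left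
      (show k ∣ 3 * 5 from hk15)
  obtain ⟨R⟩ := (inferInstance : Nonempty (Sylow 7 K))
  have hR : Nat.card (R : Subgroup K) = 7 := by
    rw [Sylow.card_eq_multiplicity, hk, show 1463 * k = 7 ^ 1 * (209 * k) by ring,
      Nat.factorization_mul_of_coprime ?_, Finsupp.add_apply,
      Nat.Prime.factorization_pow (by norm_num : Nat.Prime 7), Finsupp.single_eq_same,
      Nat.factorization_eq_zero_of_not_dvd (n := 209 * k) ?_]
    · norm_num
    · interval_cases k <;> first | omega | norm_num
    · interval_cases k <;> first | omega | norm_num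
  have hn7 : Nat.card (Sylow 7 K) = 1 := by
    have hRidx : (R : Subgroup K).index = 209 * k := by
      have h := (R : Subgroup K).card_mul_index
      rw [hR, hk] at h
      omega
    refine seven_count _ (Nat.mem_divisors.mpr ⟨(hRidx ▸ R.card_dvd_index).trans ?_, by norm_num⟩)
      (card_sylow_modEq_one 7 K)
    rw [show (1045 : ℕ) = 209 * 5 by norm_num]
    exact Nat.mul_dvd_mul_left 209 hk5
  have : Subsingleton (Sylow 7 K) := (Nat.card_eq_one_iff_unique.mp hn7).1
  have hn : (R : Subgroup K).Normal := Sylow.normal_of_subsingleton R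
  obtain ⟨w, hw⟩ := exists_prime_orderOf_dvd_card' (G := K) 11
    (by rw [hk]; exact Dvd.dvd.mul_right (by norm_num) k)
  obtain ⟨x, hx, hx1, hc⟩ := H10.J1.exists_commute_of_normalizes hw
    ((Subgroup.normalizer_eq_top (H := (R : Subgroup K))).symm ▸ Subgroup.mem_top w) (by rw [hR]; norm_num)
  have hx7 : orderOf x = 7 := by
    have h := Subgroup.orderOf_dvd_natCard _ hx
    rw [hR] at h
    exact ((Nat.dvd_prime (by norm_num)).mp h).resolve_left fun e => hx1 (orderOf_eq_one_iff.mp e)
  exact hno w x 7 hw hx7 (by norm_num) hc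

end Cfsg.Agent.H68.WeakJ1
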