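import Cfsg.Agent.H68.WeakJ1.Core
import Cfsg.Agent.S1644
import Cfsg.Agent.S2039
import Cfsg.Agent.H82.Mult

/-!
A component of the commuting graph on the conjugates of the involution generates a subgroup
isomorphic to J1.
-/

set_option autoImplicit false
set_option maxRecDepth 4000
set_option maxHeartbeats 1000000
set_option synthInstance.maxSize 4096

namespace Cfsg.Agent.H68.WeakJ1

open Cfsg.Agent.H30.TwoTimesA5 (M A τ orbitBy card_orbitBy)
open Cfsg.Agent.H68.J1
open scoped Pointwise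

variable {G : Type*} [Group G] {t : G}

theorem Hyp.conj [Finite G] (h : Hyp t) (g : G) : Hyp (g * t * g⁻¹) := by
  refine ⟨(orderOf_injective (MulAut.conj g).toMonoidHom (MulAut.conj g).injective t).trans h.ord,
    ?_, ?_⟩
  · obtain ⟨S, hts, hc⟩ := h.syl
    refine ⟨g • S, ?_, fun x hx => ?_⟩
    · rw [Sylow.coe_subgroup_smul]; exact ⟨t, hts, rfl⟩
    · rw [Sylow.coe_subgroup_smul] at hx
      obtain ⟨s, hs, rfl⟩ := hx
      show g * s * g⁻¹ * (g * t * g⁻¹) = g * t * g⁻¹ * (g * s * g⁻¹)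
      rw [conj_mul, conj_mul, hc s hs]
  · obtain ⟨e⟩ := h.iso
    have hmap : (WC t).map (MulAut.conj g).toMonoidHom = WC (g * t * g⁻¹) := by
      refine le_antisymm ?_ fun w hw => ?_
      · rintro _ ⟨w, hw, rfl⟩
        exact conj_mem_WC g hw
      · have h' := conj_mem_WC g⁻¹ hw
        have e' : g⁻¹ * (g * t * g⁻¹) * g⁻¹⁻¹ = t := by group
        rw [e'] at h'
        exact ⟨_, h', by simp [mul_assoc]⟩
    exact ⟨(MulEquiv.subgroupCongr hmap).symm.trans
      (((WC t).equivMapOfInjective _ (MulAut.conj g).injective).symm.trans e)⟩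

theorem Hyp.at [Finite G] (h : Hyp t) {d : G} (hd : d ∈ Dset t) : Hyp d := by
  obtain ⟨g, rfl⟩ := hd
  exact h.conj g

/-- Commuting conjugates. -/
def Link (t a b : G) : Prop := a ∈ Dset t ∧ b ∈ Dset t ∧ a * b = b * a

/-- Connectedness in the commuting graph on the conjugates of `t`. -/
def Conn (t : G) : G → G → Prop := Relation.ReflTransGen (Link t)

theorem Conn.symm {a b : G} (h : Conn t a b) : Conn t b a := by
  induction h with
  | refl => exact Relation.ReflTransGen.refl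
  | tail _ hbc ih => exact Relation.ReflTransGen.head ⟨hbc.2.1, hbc.1, hbc.2.2.symm⟩ ih

theorem Conn.conj {a b : G} (h : Conn t a b) (g : G) :
    Conn t (g * a * g⁻¹) (g * b * g⁻¹) := by
  induction h with
  | refl => exact Relation.ReflTransGen.refl
  | tail _ hbc ih =>
    refine ih.tail ⟨conj_mem_Dset g hbc.1, conj_mem_Dset g hbc.2.1, ?_⟩
    rw [conj_mul, conj_mul, hbc.2.2]

theorem Conn.trans {a b c : G} (h : Conn t a b) (h' : Conn t b c) : Conn t a c :=
  Relation.ReflTransGen.trans h h'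

theorem Conn.mem {a b : G} (h : Conn t a b) (ha : a ∈ Dset t) : b ∈ Dset t := by
  induction h with
  | refl => exact ha
  | tail _ hbc _ => exact hbc.2.1

theorem Conn.of_comm {a b : G} (ha : a ∈ Dset t) (hb : b ∈ Dset t) (h : a * b = b * a) :
    Conn t a b := Relation.ReflTransGen.single ⟨ha, hb, h⟩

theorem Conn.congr {t' a b : G} (ht : t' ∈ Dset t) (h : Conn t' a b) : Conn t a b := by
  induction h with
  | refl => exact Relation.ReflTransGen.refl
  | tail _ hbc ih =>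
    obtain ⟨h1, h2, h3⟩ := hbc
    rw [Dset_eq ht] at h1 h2
    exact ih.tail ⟨h1, h2, h3⟩

/-- The stabiliser of the component of `t`. -/
def stab (t : G) : Subgroup G where
  carrier := {g | Conn t t (g * t * g⁻¹)}
  one_mem' := by
    show Conn t t (1 * t * 1⁻¹)
    rw [one_mul, inv_one, mul_one]
    exact Relation.ReflTransGen.refl
  mul_mem' := by
    intro a b ha hb
    show Conn t t (a * b * t * (a * b)⁻¹)
    have h := Conn.trans ha (Conn.conj hb a)
    have e : a * (b * t * b⁻¹) * a⁻¹ = a * b * t * (a * b)⁻¹ := by group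
    rwa [e] at h
  inv_mem' := by
    intro a ha
    show Conn t t (a⁻¹ * t * a⁻¹⁻¹)
    have h := (Conn.conj ha a⁻¹).symm
    have e : a⁻¹ * (a * t * a⁻¹) * a⁻¹⁻¹ = t := by group
    rwa [e] at h

theorem mem_stab {g : G} : g ∈ stab t ↔ Conn t t (g * t * g⁻¹) := Iff.rfl

theorem cent_le_stab {c : G} (hc : c * t = t * c) : c ∈ stab t := by
  rw [mem_stab, hc, mul_inv_cancel_right]
  exact Relation.ReflTransGen.refl

/-- The component of `t`. -/
def comp (t : G) : Set G := {x | Conn t t x}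

theorem comp_sub {x : G} (hx : x ∈ comp t) : x ∈ Dset t := Conn.mem hx (self_mem_Dset t)

theorem self_mem_comp (t : G) : t ∈ comp t := Relation.ReflTransGen.refl

theorem comp_tail {x a : G} (hx : x ∈ comp t) (ha : a ∈ Dset t) (hc : a * x = x * a) :
    a ∈ comp t := Conn.trans hx (Conn.of_comm (comp_sub hx) ha hc.symm)

theorem conj_mem_comp {g x : G} (hg : g ∈ stab t) (hx : x ∈ comp t) : g * x * g⁻¹ ∈ comp t :=
  Conn.trans hg (Conn.conj hx g)

theorem comp_le_stab {x : G} (hx : x ∈ comp t) : x ∈ stab t := by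
  refine Conn.trans hx (Conn.symm ?_)
  have h := Conn.conj hx x
  rwa [mul_inv_cancel_right] at h

/-- The subgroup generated by a component. -/
def Jgp (t : G) : Subgroup G := Subgroup.closure (comp t)

theorem Jgp_le_stab : Jgp t ≤ stab t := (Subgroup.closure_le _).mpr fun _ => comp_le_stab

theorem self_mem_Jgp (t : G) : t ∈ Jgp t := Subgroup.subset_closure (self_mem_comp t)

theorem conj_mem_Jgp {g x : G} (hg : g ∈ stab t) (hx : x ∈ Jgp t) : g * x * g⁻¹ ∈ Jgp t := by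
  have h : x ∈ (Jgp t).comap (MulAut.conj g).toMonoidHom := by
    refine (Subgroup.closure_le _).mpr ?_ hx
    exact fun y hy => Subgroup.subset_closure (conj_mem_comp hg hy)
  exact h

theorem WC_le_Jgp {a : G} (ha : a ∈ comp t) : WC a ≤ Jgp t := by
  refine (Subgroup.closure_le _).mpr ?_
  rintro y ⟨g, hy, hc⟩
  refine Subgroup.subset_closure (comp_tail ha ?_ hc)
  exact Dset_eq (comp_sub ha) ▸ (⟨g, hy⟩ : y ∈ Dset a)

variable [Finite G]

theorem Pd_const (h : Hyp t) {x : G} (hx : x ∈ comp t) : Pd x = Pd t := by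
  induction hx with
  | refl => rfl
  | tail hab hbc ih =>
    obtain ⟨hb, hc, hcomm⟩ := hbc
    rw [(h.at hb).Pd_eq (by rw [Dset_eq hb]; exact hc) hcomm.symm, ih]

theorem Pd_comm_Jgp (h : Hyp t) {p x : G} (hp : p ∈ Pd t) (hx : x ∈ Jgp t) : p * x = x * p := by
  refine (Subgroup.mem_centralizer_singleton_iff.mp
    ((Subgroup.closure_le _).mpr ?_ hx : x ∈ Subgroup.centralizer ({p} : Set G))).symm
  intro y hy
  exact Subgroup.mem_centralizer_singleton_iff.mpr
    (Pd_comm_self (Pd_const h hy ▸ hp)).symm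

theorem exists_conj_comp (h : Hyp t) {x : G} (hx : x ∈ comp t) :
    ∃ j ∈ Jgp t, j * t * j⁻¹ = x := by
  induction hx with
  | refl => exact ⟨1, one_mem _, by group⟩
  | @tail b c hb hbc ih =>
    obtain ⟨j, hj, rfl⟩ := ih
    have hc : j⁻¹ * c * j⁻¹⁻¹ ∈ Dset t := conj_mem_Dset j⁻¹ hbc.2.1
    have hcomm : j⁻¹ * c * j⁻¹⁻¹ * t = t * (j⁻¹ * c * j⁻¹⁻¹) := by
      calc j⁻¹ * c * j⁻¹⁻¹ * t = j⁻¹ * (c * (j * t * j⁻¹)) * j := by group
        _ = j⁻¹ * (j * t * j⁻¹ * c) * j := by rw [hbc.2.2]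
        _ = t * (j⁻¹ * c * j⁻¹⁻¹) := by group
    obtain ⟨b', hb', hbc', g, hg, hgt⟩ := h.conj_comm hc hcomm
    refine ⟨j * g, mul_mem hj ((sup_le (WC_le_Jgp (self_mem_comp t))
      (WC_le_Jgp (comp_tail (self_mem_comp t) hb' hbc'))) hg), ?_⟩
    calc j * g * t * (j * g)⁻¹ = j * (g * t * g⁻¹) * j⁻¹ := by group
      _ = c := by rw [hgt]; group

theorem stab_decomp (h : Hyp t) {m : G} (hm : m ∈ stab t) :
    ∃ p ∈ Pd t, ∃ j ∈ Jgp t, m = p * j := by
  obtain ⟨j, hj, hjt⟩ := exists_conj_comp h (show m * t * m⁻¹ ∈ comp t from hm)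
  have hc : j⁻¹ * m * t = t * (j⁻¹ * m) := by
    calc j⁻¹ * m * t = j⁻¹ * (m * t * m⁻¹) * m := by group
      _ = t * (j⁻¹ * m) := by rw [← hjt]; group
  obtain ⟨p, hp, w, hw, he⟩ := h.decomp hc
  refine ⟨p, hp, j * w, mul_mem hj (WC_le_Jgp (self_mem_comp t) hw), ?_⟩
  calc m = j * (j⁻¹ * m) := by group
    _ = j * (p * w) := by rw [he]
    _ = p * (j * w) := by rw [← mul_assoc, ← Pd_comm_Jgp h hp hj, mul_assoc]

theorem Sylow_le_stab {S : Sylow 2 G} (hS : ∀ s ∈ (S : Subgroup G), s * t = t * s) :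
    (S : Subgroup G) ≤ stab t := fun s hs => cent_le_stab (hS s hs)

theorem mem_comp_of_mem_stab (h : Hyp t) {x : G} (hx : x ∈ Dset t) (hm : x ∈ stab t) :
    x ∈ comp t := by
  have : Fact (Nat.Prime 2) := ⟨Nat.prime_two⟩
  obtain ⟨S, -, hS⟩ := h.syl
  obtain ⟨c, hc, hcS⟩ := conj_into_sylow S (Sylow_le_stab hS)
    (IsPGroup.of_card (p := 2) (n := 1) (G := Subgroup.zpowers x)
      (by rw [Nat.card_zpowers, (h.at hx).ord, pow_one]))
    (Subgroup.zpowers_le.mpr hm)
  have h1 : c * x * c⁻¹ ∈ comp t :=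
    comp_tail (self_mem_comp t) (conj_mem_Dset c hx) (hS _ (hcS x (Subgroup.mem_zpowers x)))
  have h2 := conj_mem_comp (inv_mem hc) h1
  have e : c⁻¹ * (c * x * c⁻¹) * c⁻¹⁻¹ = x := by group
  rwa [e] at h2

theorem mem_commutator (h : Hyp t) : (⟨t, self_mem_Jgp t⟩ : Jgp t) ∈ commutator (Jgp t) := by
  obtain ⟨L, -⟩ := h.exists_loc
  have hX : ∃ p q : A, ((1, p * q * p⁻¹ * q⁻¹) : M) = mX := by decide +kernel
  obtain ⟨p, q, hpq⟩ := hX
  have hle : WC t ≤ Jgp t := WC_le_Jgp (self_mem_comp t)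
  set P : Jgp t := ⟨L.ι (1, p), hle (L.range_mem _)⟩
  set Q : Jgp t := ⟨L.ι (1, q), hle (L.range_mem _)⟩
  have hcomm : P * Q * P⁻¹ * Q⁻¹ ∈ commutator (Jgp t) :=
    Subgroup.commutator_mem_commutator (Subgroup.mem_top P) (Subgroup.mem_top Q)
  have hval : ((P * Q * P⁻¹ * Q⁻¹ : Jgp t) : G) = L.ι mX := by
    rw [← hpq]
    show L.ι (1, p) * L.ι (1, q) * (L.ι (1, p))⁻¹ * (L.ι (1, q))⁻¹ = _
    rw [← map_inv, ← map_inv, ← map_mul, ← map_mul, ← map_mul]
    simp
  have hx : L.ι mX ∈ Dset t := L.invol_mem_Dset (by decide +kernel) (by decide +kernel)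
  obtain ⟨j, hj, hjt⟩ := exists_conj_comp h
    (comp_tail (self_mem_comp t) hx (WC_comm (L.range_mem mX)))
  have h2 := (inferInstance : (commutator (Jgp t)).Normal).conj_mem _ hcomm ⟨j, hj⟩⁻¹
  convert h2 using 1
  refine Subtype.ext ?_
  simp only [Subgroup.coe_mul, Subgroup.coe_inv] at hval ⊢
  rw [hval, ← hjt]
  group

theorem invol_facts : mX * mX = 1 ∧ mX ≠ 1 ∧ (τ * mX) * (τ * mX) = 1 ∧ τ * mX ≠ 1 := by
  decide +kernel

section Quotient

variable (h : Hyp t)

/-- The central part of the subgroup generated by a component. -/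
def Zj (t : G) : Subgroup (Jgp t) := (Pd t).subgroupOf (Jgp t)

include h in
theorem Zj_le_center : Zj t ≤ Subgroup.center (Jgp t) := fun z hz =>
  Subgroup.mem_center_iff.mpr fun x => Subtype.ext (Pd_comm_Jgp h hz x.2).symm

include h in
theorem Zj_normal : (Zj t).Normal := ⟨fun z hz g => by
  have e : g * z * g⁻¹ = z := by
    rw [Subgroup.mem_center_iff.mp (Zj_le_center h hz) g, mul_inv_cancel_right]
  rwa [e]⟩

include h in
/-- The subgroup generated by a component is isomorphic to J1 modulo its central part. -/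
theorem quotient_iso [(Zj t).Normal] : Spor.IsoJ1 (Jgp t ⧸ Zj t) := by
  classical
  have : Fact (Nat.Prime 2) := ⟨Nat.prime_two⟩
  obtain ⟨L, -⟩ := h.exists_loc
  set mk := QuotientGroup.mk' (Zj t) with hmk
  have hle : WC t ≤ Jgp t := WC_le_Jgp (self_mem_comp t)
  set φ : M →* Jgp t ⧸ Zj t := mk.comp (L.ι.codRestrict (Jgp t) fun m => hle (L.range_mem m))
    with hφ
  set tJ : Jgp t := ⟨t, self_mem_Jgp t⟩ with htJ
  set tq := mk tJ with htq
  have hφτ : φ τ = tq := congrArg mk (Subtype.ext L.map_tau)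
  have hφinj : Function.Injective φ := by
    refine (injective_iff_map_eq_one φ).mpr fun m hm => ?_
    have h1 : L.ι m ∈ Pd t :=
      (QuotientGroup.eq_one_iff (N := Zj t) (⟨L.ι m, hle (L.range_mem m)⟩ : Jgp t)).mp hm
    exact L.inj ((h.Pd_inf_WC h1 (L.range_mem m)).trans (map_one L.ι).symm)
  have hgen : ∀ g : Jgp t ⧸ Zj t, ∃ x, mk x = g := QuotientGroup.mk'_surjective _
  have hcent : Subgroup.centralizer ({tq} : Set (Jgp t ⧸ Zj t)) = φ.range := by
    ext g
    constructor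
    · intro hg
      obtain ⟨⟨c, hc⟩, rfl⟩ := hgen g
      have hz := Subgroup.mem_centralizer_singleton_iff.mp hg
      rw [htq, ← map_mul, ← map_mul] at hz
      have hz' : t⁻¹ * (c⁻¹ * t * c⁻¹⁻¹) ∈ Pd t := by
        have h1 : ((⟨c, hc⟩ * tJ)⁻¹ * (tJ * ⟨c, hc⟩) : Jgp t) ∈ Zj t := QuotientGroup.eq.mp hz
        have h2 : ((c * t)⁻¹ * (t * c)) ∈ Pd t := h1
        have e : (c * t)⁻¹ * (t * c) = t⁻¹ * (c⁻¹ * t * c⁻¹⁻¹) := by group
        rwa [e] at h2
      set z := t⁻¹ * (c⁻¹ * t * c⁻¹⁻¹) with hzdef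
      have hdc : c⁻¹ * t * c⁻¹⁻¹ = t * z := by rw [hzdef, mul_inv_cancel_left]
      have hW : c⁻¹ * t * c⁻¹⁻¹ ∈ WC t := by
        refine mem_WC ⟨c⁻¹, rfl⟩ ?_
        rw [hdc, mul_assoc, Pd_comm_self hz']
      have hz1 : z = 1 := h.Pd_inf_WC hz' (mul_mem (inv_mem (self_mem_WC t)) hW)
      rw [hz1, mul_one, inv_inv, mul_assoc, inv_mul_eq_iff_eq_mul] at hdc
      obtain ⟨p, hp, w, hw, rfl⟩ := h.decomp hdc.symm
      obtain ⟨m, rfl⟩ : w ∈ L.ι.range := L.range_eq ▸ hw
      refine ⟨m, ?_⟩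
      show mk _ = mk _
      rw [QuotientGroup.mk'_eq_mk']
      have hpJ : p ∈ Jgp t := by
        have h3 := mul_mem hc (inv_mem (hle (L.range_mem m)))
        rwa [mul_inv_cancel_right] at h3
      refine ⟨⟨p, hpJ⟩, hp, Subtype.ext ?_⟩
      exact (Pd_comm_Jgp h hp (hle (L.range_mem m))).symm
    · rintro ⟨m, rfl⟩
      rw [Subgroup.mem_centralizer_singleton_iff, ← hφτ, ← map_mul, ← map_mul,
        H30.TwoTimesA5.tau_central]
  have ht2 : orderOf tq = 2 := by
    rw [← hφτ, orderOf_injective φ hφinj]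
    exact orderOf_eq_prime (by rw [pow_two, H30.TwoTimesA5.tau_ne.2]) H30.TwoTimesA5.tau_ne.1
  -- a Sylow subgroup
  obtain ⟨R, hR⟩ := (L.isPGroup_E.comap_of_injective (Jgp t).subtype Subtype.val_injective).exists_le_sylow
  have hRt : ∀ r ∈ (R : Subgroup (Jgp t)), r * tJ = tJ * r := fun r hr => Subtype.ext <| by
    refine L.two_group_comm (R.isPGroup'.map (Jgp t).subtype) (fun e he => ?_) ⟨r, hr, rfl⟩
    exact ⟨⟨e, hle (L.range_eq ▸ Subgroup.map_le_range _ _ he)⟩, hR he, rfl⟩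
  set Rq := R.mapSurjective (QuotientGroup.mk'_surjective (Zj t)) with hRq
  have hRc : ∀ x ∈ (Rq : Subgroup (Jgp t ⧸ Zj t)), x ∈ φ.range := by
    rintro _ ⟨r, hr, rfl⟩
    rw [← hcent]
    exact Subgroup.mem_centralizer_singleton_iff.mpr (by
      rw [htq, ← map_mul, ← map_mul, hRt r hr])
  have hsq : ∀ x ∈ (Rq : Subgroup (Jgp t ⧸ Zj t)), x * x = 1 := by
    intro x hx
    obtain ⟨k, hk⟩ := Rq.isPGroup' ⟨x, hx⟩
    obtain ⟨m, rfl⟩ := hRc x hx
    rw [← map_mul, H30.TwoTimesA5.two_power_sq m, map_one]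
    have hm : orderOf m ∣ 2 ^ k := orderOf_dvd_of_pow_eq_one (hφinj (by
      rw [map_pow, map_one]; exact congrArg Subtype.val hk))
    obtain ⟨i, -, hi⟩ := (Nat.dvd_prime_pow Nat.prime_two).mp hm
    have h120 : orderOf m ∣ 120 := H30.TwoTimesA5.card_M ▸ orderOf_dvd_card
    rw [hi] at h120
    refine orderOf_dvd_iff_pow_eq_one.mp ?_
    rw [hi]
    have hi3 : i ≤ 3 := by
      by_contra hc
      exact absurd ((pow_dvd_pow 2 (by omega : 4 ≤ i)).trans h120) (by norm_num)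
    exact (pow_dvd_pow 2 hi3).trans (by norm_num)
  have hab : IsMulCommutative (Rq : Subgroup (Jgp t ⧸ Zj t)) := ⟨⟨fun a b => Subtype.ext (by
    have ha := hsq _ a.2; have hb := hsq _ b.2; have hab := hsq _ (mul_mem a.2 b.2)
    have i1 := inv_eq_of_mul_eq_one_right hab
    rw [mul_inv_rev, inv_eq_of_mul_eq_one_right ha, inv_eq_of_mul_eq_one_right hb] at i1
    exact i1.symm)⟩⟩
  have h8 : Nat.card Rq = 8 := by
    obtain ⟨i, hi⟩ := IsPGroup.iff_card.mp Rq.isPGroup'
    have hup : Nat.card Rq ∣ 120 := by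
      refine (Subgroup.card_dvd_of_le (fun x hx => hRc x hx)).trans (dvd_of_eq ?_)
      rw [← Nat.card_congr (MonoidHom.ofInjective hφinj).toEquiv, Nat.card_eq_fintype_card,
        H30.TwoTimesA5.card_M]
    have hlo : 8 ∣ Nat.card Rq := by
      rw [← card_V8, ← Subgroup.card_map_of_injective (K := V8) hφinj]
      refine Subgroup.card_dvd_of_le ?_
      rintro _ ⟨m, hm, rfl⟩
      exact ⟨⟨L.ι m, hle (L.range_mem m)⟩, hR (Subgroup.mem_map_of_mem L.ι hm), rfl⟩
    change Nat.card Rq = 2 ^ i at hi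
    rw [hi] at hup hlo ⊢
    have h1 : 3 ≤ i := (Nat.pow_dvd_pow_iff_le_right (by norm_num)).mp
      (show 2 ^ 3 ∣ 2 ^ i from hlo)
    have h2 : i ≤ 3 := by
      by_contra hc
      exact absurd ((pow_dvd_pow 2 (by omega : 4 ≤ i)).trans hup) (by norm_num)
    rw [show i = 3 by omega]; norm_num
  -- conjugates of the involution
  have hconjt : ∀ {x : G} (hx : x ∈ comp t), ∃ g, g * tq * g⁻¹ =
      mk ⟨x, Subgroup.subset_closure hx⟩ := by
    intro x hx
    obtain ⟨j, hj, hjt⟩ := exists_conj_comp h hx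
    refine ⟨mk ⟨j, hj⟩, ?_⟩
    rw [htq, ← map_inv, ← map_mul, ← map_mul]
    exact congrArg mk (Subtype.ext hjt)
  have hinvol : ∀ m : M, m * m = 1 → m ≠ 1 → ∃ g, g * tq * g⁻¹ = φ m := by
    intro m h2 h1
    exact hconjt (comp_tail (self_mem_comp t) (L.invol_mem_Dset h2 h1)
      (WC_comm (L.range_mem m)))
  have hfus : ∀ u : Jgp t ⧸ Zj t, orderOf u = 2 → ∃ g, g * tq * g⁻¹ = u := by
    intro u hu
    obtain ⟨c, -, hc⟩ := conj_into_sylow Rq (K := ⊤) le_top
      (IsPGroup.of_card (p := 2) (n := 1) (G := Subgroup.zpowers u)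
        (by rw [Nat.card_zpowers, hu, pow_one])) le_top
    have h1 := hc u (Subgroup.mem_zpowers u)
    obtain ⟨m, hm⟩ := hRc _ h1
    have h2 := hsq _ h1
    rw [← hm, ← map_mul] at h2
    have hm1 : m ≠ 1 := fun e => by
      rw [e, map_one] at hm
      rw [conj_eq_one_iff.mp hm.symm, orderOf_one] at hu
      omega
    obtain ⟨g, hg⟩ := hinvol m (hφinj (h2.trans (map_one φ).symm)) hm1
    refine ⟨c⁻¹ * g, ?_⟩
    calc c⁻¹ * g * tq * (c⁻¹ * g)⁻¹ = c⁻¹ * (g * tq * g⁻¹) * c := by group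
      _ = u := by rw [hg, hm]; group
  have hsimple : IsSimpleGroup (Jgp t ⧸ Zj t) := by
    have : Nontrivial (Jgp t ⧸ Zj t) := ⟨⟨tq, 1, fun e => by
      rw [e, orderOf_one] at ht2; omega⟩⟩
    refine ⟨fun N hN => ?_⟩
    by_cases h2 : 2 ∣ Nat.card N
    · obtain ⟨u, hu⟩ := exists_prime_orderOf_dvd_card' 2 h2
      obtain ⟨g, hg⟩ := hfus (u : Jgp t ⧸ Zj t) (by rw [Subgroup.orderOf_coe, hu])
      have htN : tq ∈ N := by
        have h' := hN.conj_mem _ u.2 g⁻¹
        rw [← hg] at h'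
        have e : g⁻¹ * (g * tq * g⁻¹) * g⁻¹⁻¹ = tq := by group
        rwa [e] at h'
      refine Or.inr (eq_top_iff.mpr fun q _ => ?_)
      obtain ⟨⟨x, hx⟩, rfl⟩ := hgen q
      induction hx using Subgroup.closure_induction with
      | mem y hy =>
        obtain ⟨g, hg⟩ := hconjt hy
        exact hg ▸ hN.conj_mem _ htN g
      | one => exact (map_one mk).symm ▸ one_mem N
      | mul a b ha hb iha ihb =>
        rw [show (⟨a * b, _⟩ : Jgp t) = ⟨a, ha⟩ * ⟨b, hb⟩ from rfl, map_mul]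
        exact mul_mem (iha trivial) (ihb trivial)
      | inv a ha iha =>
        rw [show (⟨a⁻¹, _⟩ : Jgp t) = ⟨a, ha⟩⁻¹ from rfl, map_inv]
        exact inv_mem (iha trivial)
    · left
      have hbot : N.comap φ = ⊥ := by
        refine odd_normal_eq_bot _ fun hd => h2 (hd.trans ?_)
        exact Subgroup.card_comap_dvd_of_injective N φ hφinj
      have hfix : ∀ n ∈ N, n * tq = tq * n → n = 1 := by
        intro n hn hc
        obtain ⟨m, rfl⟩ : n ∈ φ.range := hcent ▸ Subgroup.mem_centralizer_singleton_iff.mpr hc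
        have : m ∈ N.comap φ := hn
        rw [hbot, Subgroup.mem_bot] at this
        rw [this, map_one]
      have htt : tq * tq = 1 := by rw [← hφτ, ← map_mul, H30.TwoTimesA5.tau_ne.2, map_one]
      have hti : tq⁻¹ = tq := inv_eq_of_mul_eq_one_right htt
      set f : N → N := fun a => ⟨(a : Jgp t ⧸ Zj t)⁻¹ * (tq * a * tq⁻¹),
        mul_mem (inv_mem a.2) (hN.conj_mem _ a.2 tq)⟩ with hf
      have hfinj : Function.Injective f := by
        intro a b hab
        have e := congrArg Subtype.val hab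
        simp only [hf] at e
        refine Subtype.ext ?_
        have h1 : ((b : Jgp t ⧸ Zj t) * (a : Jgp t ⧸ Zj t)⁻¹) * tq =
            tq * ((b : Jgp t ⧸ Zj t) * (a : Jgp t ⧸ Zj t)⁻¹) := by
          calc _ = b * ((a : Jgp t ⧸ Zj t)⁻¹ * (tq * a * tq⁻¹)) * (tq * (a : Jgp t ⧸ Zj t)⁻¹) := by
                group
            _ = _ := by rw [e]; group
        exact (mul_inv_eq_one.mp (hfix _ (mul_mem b.2 (inv_mem a.2)) h1)).symm
      have hinvert : ∀ n ∈ N, tq * n * tq⁻¹ = n⁻¹ := by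
        intro n hn
        obtain ⟨a, ha⟩ := Finite.surjective_of_injective hfinj ⟨n, hn⟩
        have e : (a : Jgp t ⧸ Zj t)⁻¹ * (tq * a * tq⁻¹) = n := congrArg Subtype.val ha
        rw [← e, hti, mul_inv_rev, inv_inv, mul_inv_rev, mul_inv_rev, hti]
        calc tq * ((a : Jgp t ⧸ Zj t)⁻¹ * (tq * a * tq)) * tq
            = tq * (a : Jgp t ⧸ Zj t)⁻¹ * tq * a * (tq * tq) := by group
          _ = _ := by rw [htt, mul_one]; group
      have hall : ∀ m : M, m * m = 1 → m ≠ 1 → ∀ n ∈ N, φ m * n * (φ m)⁻¹ = n⁻¹ := by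
        intro m hm2 hm1 n hn
        obtain ⟨g, hg⟩ := hinvol m hm2 hm1
        have h3 := hinvert _ (hN.conj_mem _ hn g⁻¹)
        rw [← hg]
        calc g * tq * g⁻¹ * n * (g * tq * g⁻¹)⁻¹ = g * (tq * (g⁻¹ * n * g⁻¹⁻¹) * tq⁻¹) * g⁻¹ := by
              group
          _ = n⁻¹ := by rw [h3]; group
      refine eq_bot_iff.mpr fun n hn => Subgroup.mem_bot.mpr ?_
      have i1 := hall mX invol_facts.1 invol_facts.2.1 n hn
      have i2 := hall (τ * mX) invol_facts.2.2.1 invol_facts.2.2.2 n hn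
      have hnn : n⁻¹ = n := by
        rw [← i2, map_mul, hφτ]
        calc tq * φ mX * n * (tq * φ mX)⁻¹ = tq * (φ mX * n * (φ mX)⁻¹) * tq⁻¹ := by group
          _ = (n⁻¹)⁻¹ := by rw [i1, hinvert _ (inv_mem hn)]
          _ = n := inv_inv n
      by_contra hne
      refine h2 ?_
      have hord : orderOf n = 2 := orderOf_eq_prime
        (by rw [pow_two]; nth_rw 1 [← hnn]; exact inv_mul_cancel n) hne
      rw [← hord, ← Subgroup.orderOf_mk n hn]
      exact orderOf_dvd_natCard _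
  exact S1644.result Rq hab h8 tq ht2
    (((MulEquiv.subgroupCongr hcent).trans (MonoidHom.ofInjective hφinj).symm))

end Quotient

theorem Jgp_inf_Pd (h : Hyp t) : Jgp t ⊓ Pd t = ⊥ := by
  have : (Zj t).Normal := Zj_normal h
  obtain ⟨e⟩ := quotient_iso h
  have hm : Cfsg.HasCyclicSchurMultiplier (Jgp t ⧸ Zj t) 1 :=
    H82.HasSchurMultiplier.of_mulEquiv S2039.result e.symm
  have hbot := H82.ker_inf_commutator_eq_bot hm (QuotientGroup.mk'_surjective (Zj t))
    (by rw [QuotientGroup.ker_mk']; exact Zj_le_center h)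
  rw [QuotientGroup.ker_mk'] at hbot
  have htop : commutator (Jgp t) = ⊤ := by
    refine eq_top_iff.mpr fun x _ => ?_
    obtain ⟨x, hx⟩ := x
    induction hx using Subgroup.closure_induction with
    | mem y hy =>
      obtain ⟨j, hj, hjt⟩ := exists_conj_comp h hy
      have h2 := (inferInstance : (commutator (Jgp t)).Normal).conj_mem _ (mem_commutator h) ⟨j, hj⟩
      convert h2 using 1
      exact Subtype.ext hjt.symm
    | one => exact one_mem _
    | mul a b ha hb iha ihb => exact mul_mem (iha trivial) (ihb trivial)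
    | inv a ha iha => exact inv_mem (iha trivial)
  rw [htop, inf_top_eq] at hbot
  refine eq_bot_iff.mpr fun x hx => ?_
  have hz : (⟨x, hx.1⟩ : Jgp t) ∈ Zj t := hx.2
  rw [hbot, Subgroup.mem_bot] at hz
  exact Subgroup.mem_bot.mpr (congrArg Subtype.val hz)

theorem Jgp_iso (h : Hyp t) : Spor.IsoJ1 (Jgp t) := by
  have : (Zj t).Normal := Zj_normal h
  obtain ⟨e⟩ := quotient_iso h
  have hb : Zj t = ⊥ := by
    refine eq_bot_iff.mpr fun x hx => ?_
    have : (x : G) ∈ Jgp t ⊓ Pd t := ⟨x.2, hx⟩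
    rw [Jgp_inf_Pd h, Subgroup.mem_bot] at this
    exact Subgroup.mem_bot.mpr (Subtype.ext this)
  refine ⟨MulEquiv.trans ?_ e⟩
  exact ((QuotientGroup.quotientMulEquivOfEq hb).trans QuotientGroup.quotientBot).symm

theorem mem_WC_of_comm (h : Hyp t) {c : G} (hc : c ∈ Jgp t) (hct : c * t = t * c) : c ∈ WC t := by
  obtain ⟨p, hp, w, hw, rfl⟩ := h.decomp hct
  have hpJ := mul_mem hc (inv_mem (WC_le_Jgp (self_mem_comp t) hw))
  rw [mul_inv_cancel_right] at hpJ
  have hb : p ∈ Jgp t ⊓ Pd t := ⟨hpJ, hp⟩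
  rw [Jgp_inf_Pd h, Subgroup.mem_bot] at hb
  rwa [hb, one_mul]

theorem invol_mem_comp (h : Hyp t) {u : G} (hu : u ∈ Jgp t) (h2 : u * u = 1) (h1 : u ≠ 1) :
    u ∈ comp t := by
  have : Fact (Nat.Prime 2) := ⟨Nat.prime_two⟩
  obtain ⟨S, -, hS⟩ := h.syl
  obtain ⟨c, hc, hcS⟩ := conj_into_sylow S (Sylow_le_stab hS)
    (IsPGroup.of_card (p := 2) (n := 1) (G := Subgroup.zpowers u)
      (by rw [Nat.card_zpowers, orderOf_eq_prime (by rw [pow_two, h2]) h1, pow_one]))
    (Subgroup.zpowers_le.mpr (Jgp_le_stab hu))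
  have hcomm := hS _ (hcS u (Subgroup.mem_zpowers u))
  have hD : c * u * c⁻¹ ∈ Dset t := h.invol_mem
    (mem_WC_of_comm h (conj_mem_Jgp hc hu) hcomm)
    (by rw [conj_mul, h2]; group) (fun e => h1 (conj_eq_one_iff.mp e))
  have h3 := conj_mem_comp (inv_mem hc) (comp_tail (self_mem_comp t) hD hcomm)
  have e : c⁻¹ * (c * u * c⁻¹) * c⁻¹⁻¹ = u := by group
  rwa [e] at h3

/-- A component has 1463 members. -/
theorem card_comp (h : Hyp t) : Nat.card (comp t) = 1463 := by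
  obtain ⟨e⟩ := Jgp_iso h
  obtain ⟨L, -⟩ := h.exists_loc
  have horb : orbitBy (Jgp t) t = comp t := by
    ext x
    exact ⟨fun ⟨n, hn, he⟩ => he ▸ conj_mem_comp (Jgp_le_stab hn) (self_mem_comp t),
      fun hx => exists_conj_comp h hx⟩
  have hW : Jgp t ⊓ Subgroup.centralizer ({t} : Set G) = WC t :=
    le_antisymm (fun c hc => mem_WC_of_comm h hc.1 (Subgroup.mem_centralizer_singleton_iff.mp hc.2))
      (le_inf (WC_le_Jgp (self_mem_comp t))
        fun w hw => Subgroup.mem_centralizer_singleton_iff.mpr (WC_comm hw))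
  have hc := card_orbitBy (Jgp t) (self_mem_Jgp t)
  rw [horb, hW, ← L.range_eq, ← Nat.card_congr (MonoidHom.ofInjective L.inj).toEquiv,
    Nat.card_eq_fintype_card (α := M), H30.TwoTimesA5.card_M, Nat.card_congr e.toEquiv,
    H10.J1.card_J1] at hc
  omega

end Cfsg.Agent.H68.WeakJ1
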