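import Cfsg.Agent.H68.WeakJ1.Component
import Cfsg.Agent.H68.WeakJ1.Arith
import Cfsg.Agent.H50.TwoInvolutions

/-!
The commuting graph on the conjugates of the involution is connected.
-/

set_option autoImplicit false
set_option maxRecDepth 4000
set_option maxHeartbeats 1000000
set_option synthInstance.maxSize 4096

universe u

namespace Cfsg.Agent.H68.WeakJ1

open Cfsg.Agent.H30.TwoTimesA5 (M A τ)
open Cfsg.Agent.H50

variable {G : Type u} [Group G] [Finite G] {t : G}

theorem Hyp.ord_of_mem (h : Hyp t) {a : G} (ha : a ∈ Dset t) : orderOf a = 2 := (h.at ha).ord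

/-- Conjugates in different components have product of odd order. -/
theorem odd_of_not_conn (h : Hyp t) {a b : G} (ha : a ∈ Dset t) (hb : b ∈ Dset t)
    (hn : ¬ Conn t a b) : Odd (orderOf (a * b)) := by
  by_contra hodd
  obtain ⟨m, -, hw, hca, hcb, hcase⟩ := central_involution_spec (h.ord_of_mem ha)
    (h.ord_of_mem hb) (Nat.not_odd_iff_even.mp hodd)
  set w := (a * b) ^ m
  have haw : a * w ∈ Dset t := by
    rcases hcase with ⟨-, i, hi⟩ | ⟨-, i, hi⟩
    · exact hi ▸ conj_mem_Dset _ ha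
    · exact hi ▸ conj_mem_Dset _ hb
  have hwW : w ∈ WC a := by
    have h1 : a * w ∈ WC a := mem_WC (by rw [Dset_eq ha]; exact haw)
      (by rw [mul_assoc, ← hca.eq, ← mul_assoc])
    have h2 := mul_mem (inv_mem (self_mem_WC a)) h1
    rwa [inv_mul_cancel_left] at h2
  have hwD : w ∈ Dset t := by
    have h2 := (h.at ha).invol_mem hwW (inv_mul_self hw) (fun e => by
      rw [e, orderOf_one] at hw; omega)
    rwa [Dset_eq ha] at h2
  exact hn ((Conn.of_comm ha hwD hca.eq).trans (Conn.of_comm hwD hb hcb.eq.symm))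

theorem exists_swap (h : Hyp t) {a b : G} (ha : a ∈ Dset t) (hb : b ∈ Dset t)
    (hn : ¬ Conn t a b) : ∃ x : G, x * a * x⁻¹ = b ∧ x * b * x⁻¹ = a := by
  have hA := h.ord_of_mem ha
  have hB := h.ord_of_mem hb
  obtain ⟨i, hi⟩ := exists_conj_of_odd hA hB (odd_of_not_conn h ha hb hn)
  set g := (a * b) ^ i
  refine ⟨g * a, ?_, ?_⟩
  · rw [← hi]; group
  · have h1 : a * g * a⁻¹ = g⁻¹ := conj_prod_pow_left hA hB i
    calc g * a * b * (g * a)⁻¹ = g * (a * (g * a * g⁻¹) * a⁻¹) * g⁻¹ := by rw [← hi]; group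
      _ = g * ((a * g * a⁻¹) * a * (a * g * a⁻¹)⁻¹) * g⁻¹ := by group
      _ = a := by rw [h1]; group

/-- An involution stabilising a component centralises the weak closure of one of its members. -/
theorem exists_centralised (h : Hyp t) {u : G} (hu : u ∈ stab t) (h2 : u * u = 1) :
    ∃ a ∈ comp t, ∀ w ∈ WC a, u * w = w * u := by
  obtain ⟨p, hp, j, hj, rfl⟩ := stab_decomp h hu
  have hpj := Pd_comm_Jgp h hp hj
  have hjj : j * j = 1 := by
    have e : j * j = (p * p)⁻¹ := eq_inv_of_mul_eq_one_right (by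
      calc p * p * (j * j) = p * (p * j) * j := by group
        _ = p * (j * p) * j := by rw [hpj]
        _ = p * j * (p * j) := by group
        _ = 1 := h2)
    have hb : j * j ∈ Jgp t ⊓ Pd t :=
      Subgroup.mem_inf.mpr ⟨mul_mem hj hj, e.symm ▸ inv_mem (mul_mem hp hp)⟩
    rwa [Jgp_inf_Pd h, Subgroup.mem_bot] at hb
  by_cases hj1 : j = 1
  · subst hj1
    exact ⟨t, self_mem_comp t, fun w hw => by rw [mul_one]; exact Pd_comm_WC hp hw⟩
  · have ha := invol_mem_comp h hj hjj hj1
    refine ⟨j, ha, fun w hw => ?_⟩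
    have h1 : p * w = w * p := Pd_comm_WC (Pd_const h ha ▸ hp) hw
    rw [mul_assoc, ← WC_comm hw, ← mul_assoc, h1, mul_assoc]

/-- The hypothesis passes to the centralizer of an involution centralising a weak closure. -/
theorem hyp_centralizer (h : Hyp t) {C : Subgroup G} {a : G} (haC : a ∈ C) (ha : a ∈ Dset t)
    (hW : WC a ≤ C) (hfus : ∀ (x : G) (hxC : x ∈ C), x ∈ Dset t → (⟨x, hxC⟩ : C) ∈ Dset (⟨a, haC⟩ : C)) :
    Hyp (⟨a, haC⟩ : C) := by
  have : Fact (Nat.Prime 2) := ⟨Nat.prime_two⟩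
  have hmap : (WC (⟨a, haC⟩ : C)).map C.subtype = WC a := by
    refine le_antisymm ?_ ?_
    · rw [Subgroup.map_le_iff_le_comap]
      refine (Subgroup.closure_le _).mpr ?_
      rintro x ⟨g, hx, hc⟩
      exact mem_WC ⟨g, congrArg Subtype.val hx⟩ (congrArg Subtype.val hc)
    · refine (Subgroup.closure_le _).mpr ?_
      rintro x ⟨g, hx, hc⟩
      have hxC : x ∈ C := hW (mem_WC ⟨g, hx⟩ hc)
      refine ⟨⟨x, hxC⟩, mem_WC (hfus x hxC ?_) (Subtype.ext hc), rfl⟩
      exact Dset_eq ha ▸ (⟨g, hx⟩ : x ∈ Dset a)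
  refine ⟨?_, ?_, ?_⟩
  · rw [← Subgroup.orderOf_coe]; exact h.ord_of_mem ha
  · obtain ⟨E, hEW, haE, hE2, hcent⟩ := (h.at ha).two_central
    obtain ⟨R, hR⟩ := (hE2.comap_of_injective C.subtype Subtype.val_injective).exists_le_sylow
    refine ⟨R, hR haE, fun r hr => Subtype.ext ?_⟩
    exact hcent _ (R.isPGroup'.map C.subtype)
      (fun e he => ⟨⟨e, hW (hEW he)⟩, hR he, rfl⟩) _ ⟨r, hr, rfl⟩
  · obtain ⟨e⟩ := (h.at ha).iso
    exact ⟨((WC _).equivMapOfInjective C.subtype Subtype.val_injective).trans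
      ((MulEquiv.subgroupCongr hmap).trans e)⟩

theorem conn_coe {C : Subgroup G} {a x y : C} (ha : (a : G) ∈ Dset t) (h : Conn a x y) :
    Conn t (x : G) (y : G) := by
  induction h with
  | refl => exact Relation.ReflTransGen.refl
  | tail _ hbc ih =>
    obtain ⟨⟨g, hg⟩, ⟨g', hg'⟩, hc⟩ := hbc
    refine ih.tail ⟨?_, ?_, congrArg Subtype.val hc⟩
    · rw [hg]; exact conj_mem_Dset (g : G) ha
    · rw [hg']; exact conj_mem_Dset (g' : G) ha

/-- No involution stabilises two components, given connectedness in smaller groups. -/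
theorem not_two_stable
    (ih : ∀ {X : Type u} [Group X] [Finite X] (s : X), Nat.card X < Nat.card G → Hyp s →
      ∀ x ∈ Dset s, Conn s s x)
    (h : Hyp t) {b : G} (hb : b ∈ Dset t) (hn : ¬ Conn t t b) {u : G} (hu : u ∈ stab t)
    (hu' : u ∈ stab b) (h2 : u * u = 1) : u = 1 := by
  by_contra hu1
  obtain ⟨a, ha, hua⟩ := exists_centralised h hu h2
  obtain ⟨b', hb', hub'⟩ := exists_centralised (h.at hb) hu' h2
  have haD := comp_sub ha
  have hb'D : b' ∈ Dset t := Dset_eq hb ▸ comp_sub hb'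
  have hab : ¬ Conn t a b' := fun e =>
    hn ((Conn.trans ha e).trans (Conn.congr hb hb').symm)
  set C := Subgroup.centralizer ({u} : Set G) with hC
  have haC : a ∈ C := Subgroup.mem_centralizer_singleton_iff.mpr (hua a (self_mem_WC a)).symm
  have hb'C : b' ∈ C := Subgroup.mem_centralizer_singleton_iff.mpr (hub' b' (self_mem_WC b')).symm
  by_cases hCtop : C = ⊤
  · -- the involution is central
    have hcen : ∀ g : G, g * u = u * g := fun g =>
      Subgroup.mem_centralizer_singleton_iff.mp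
        ((show Subgroup.centralizer ({u} : Set G) = ⊤ from hCtop).symm ▸ Subgroup.mem_top g)
    have hfixed : u ∉ Dset t := by
      rintro ⟨g, hg⟩
      have htu : t = u := by
        calc t = g⁻¹ * u * g := by rw [hg]; group
          _ = u := by rw [mul_assoc, ← hcen g, inv_mul_cancel_left]
      obtain ⟨f, hf⟩ := hb
      rw [htu, hcen f, mul_inv_cancel_right, ← htu] at hf
      exact hn (hf ▸ Relation.ReflTransGen.refl)
    have hnoW : ∀ x ∈ Dset t, u ∉ WC x := fun x hx hux => hfixed (by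
      have h3 := (h.at hx).invol_mem hux h2 hu1
      rwa [Dset_eq hx] at h3)
    have hkey : ∀ x y : G, x ∈ Dset t → y ∈ Dset t → x * y ≠ y * x * u := by
      intro x y hx hy e
      have hord : ¬ Odd (orderOf (x * y)) := by
        intro hodd
        have hsq : (x * y) ^ 2 = u := by
          have hxx := inv_mul_self (h.ord_of_mem hx)
          have hyy := inv_mul_self (h.ord_of_mem hy)
          calc (x * y) ^ 2 = x * y * (x * y) := pow_two _
            _ = y * x * (u * (x * y)) := by nth_rw 1 [e]; rw [mul_assoc]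
            _ = y * x * ((x * y) * u) := by rw [hcen]
            _ = y * (x * x) * y * u := by group
            _ = u := by rw [hxx, mul_one, hyy, one_mul]
        have h4 : orderOf u ∣ orderOf (x * y) := hsq ▸ orderOf_pow_dvd 2
        rw [orderOf_eq_two h2 hu1] at h4
        exact (Nat.not_even_iff_odd.mpr hodd) (even_iff_two_dvd.mpr h4)
      have hconn : Conn t x y := by
        by_contra hc
        exact hord (odd_of_not_conn h hx hy hc)
      have hyJ : y ∈ Jgp x := Subgroup.subset_closure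
        (Conn.congr (show t ∈ Dset x from Dset_eq hx ▸ self_mem_Dset t) hconn)
      have huJ : u ∈ Jgp x := by
        have e' : u = (y * x)⁻¹ * (x * y) := by rw [e, inv_mul_cancel_left]
        rw [e']
        exact mul_mem (inv_mem (mul_mem hyJ (self_mem_Jgp x))) (mul_mem (self_mem_Jgp x) hyJ)
      refine hfixed ?_
      have h5 := comp_sub (invol_mem_comp (h.at hx) huJ h2 hu1)
      rwa [Dset_eq hx] at h5
    set U := Subgroup.zpowers u with hU
    have hUmem : ∀ x ∈ U, x = 1 ∨ x = u := by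
      intro x hx
      obtain ⟨i, rfl⟩ := hx
      rcases Int.even_or_odd i with ⟨k, rfl⟩ | ⟨k, rfl⟩
      · exact Or.inl (by simp only [← two_mul, zpow_mul, zpow_two, h2, one_zpow])
      · exact Or.inr (by simp only [zpow_add_one, zpow_mul, zpow_two, h2, one_zpow, one_mul])
    have hUn : U.Normal := ⟨fun x hx g => by
      have e : g * x * g⁻¹ = x := by
        rcases hUmem x hx with rfl | rfl
        · group
        · rw [hcen g, mul_inv_cancel_right]
      rwa [e]⟩
    set π := QuotientGroup.mk' U with hπ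
    have hπsurj : Function.Surjective π := QuotientGroup.mk'_surjective U
    have hlift : ∀ x y : G, x ∈ Dset t → y ∈ Dset t → π x * π y = π y * π x → x * y = y * x := by
      intro x y hx hy hxy
      rw [← map_mul, ← map_mul] at hxy
      have h1 : (y * x)⁻¹ * (x * y) ∈ U := QuotientGroup.eq.mp hxy.symm
      rcases hUmem _ h1 with h3 | h3
      · exact (inv_mul_eq_one.mp h3).symm
      · exact absurd (by rw [← h3, mul_inv_cancel_left]) (hkey x y hx hy)
    have hDinj : ∀ x y : G, x ∈ Dset t → y ∈ Dset t → π x = π y → x = y := by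
      intro x y hx hy hxy
      have h1 : x⁻¹ * y ∈ U := QuotientGroup.eq.mp hxy
      rcases hUmem _ h1 with h3 | h3
      · exact inv_mul_eq_one.mp h3
      · exfalso
        have hxu : y = x * u := by rw [← h3, mul_inv_cancel_left]
        have hyW : y ∈ WC x := by
          refine mem_WC (by rw [Dset_eq hx]; exact hy) ?_
          rw [hxu, mul_assoc, ← hcen x]
        exact hnoW x hx (h3 ▸ mul_mem (inv_mem (self_mem_WC x)) hyW)
    have hDq : ∀ q ∈ Dset (π t), ∃ x ∈ Dset t, π x = q := by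
      rintro q ⟨g, rfl⟩
      obtain ⟨g', rfl⟩ := hπsurj g
      exact ⟨g' * t * g'⁻¹, ⟨g', rfl⟩, by simp only [map_mul, map_inv]⟩
    have hmap : (WC t).map π = WC (π t) := by
      refine le_antisymm ?_ ?_
      · rw [Subgroup.map_le_iff_le_comap]
        refine (Subgroup.closure_le _).mpr ?_
        rintro x ⟨g, rfl, hc⟩
        refine mem_WC ⟨π g, by simp only [map_mul, map_inv]⟩ ?_
        rw [← map_mul, ← map_mul, hc]
      · refine (Subgroup.closure_le _).mpr ?_
        rintro q ⟨g, hq, hc⟩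
        obtain ⟨x, hx, rfl⟩ := hDq q ⟨g, hq⟩
        exact ⟨x, mem_WC hx (hlift x t hx (self_mem_Dset t) hc), rfl⟩
    have hinj : Function.Injective (π.subgroupMap (WC t)) := by
      refine (injective_iff_map_eq_one _).mpr fun x hx => ?_
      have h1 : (x : G) ∈ U := (QuotientGroup.eq_one_iff _).mp (congrArg Subtype.val hx)
      rcases hUmem _ h1 with h3 | h3
      · exact Subtype.ext h3
      · exact absurd (h3 ▸ x.2) (hnoW t (self_mem_Dset t))
    have hq : Hyp (π t) := by
      refine ⟨?_, ?_, ?_⟩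
      · refine orderOf_eq_two (by rw [← map_mul, inv_mul_self h.ord, map_one]) fun e => ?_
        have h1 : t ∈ U := (QuotientGroup.eq_one_iff _).mp e
        rcases hUmem _ h1 with h3 | h3
        · exact absurd h.ord (by rw [h3, orderOf_one]; norm_num)
        · exact hfixed (h3 ▸ self_mem_Dset t)
      · have : Fact (Nat.Prime 2) := ⟨Nat.prime_two⟩
        obtain ⟨S, hts, hS⟩ := h.syl
        refine ⟨S.mapSurjective hπsurj, ?_, ?_⟩
        · rw [Sylow.coe_mapSurjective]; exact ⟨t, hts, rfl⟩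
        · intro q hq
          rw [Sylow.coe_mapSurjective] at hq
          obtain ⟨s, hs, rfl⟩ := hq
          rw [← map_mul, ← map_mul, hS s hs]
      · obtain ⟨e⟩ := h.iso
        exact ⟨(MulEquiv.subgroupCongr hmap).symm.trans
          ((MulEquiv.ofBijective _ ⟨hinj, π.subgroupMap_surjective (WC t)⟩).symm.trans e)⟩
    have hlt : Nat.card (G ⧸ U) < Nat.card G := by
      have hUc : Nat.card U = 2 := (Nat.card_zpowers u).trans (orderOf_eq_two h2 hu1)
      rw [Subgroup.card_eq_card_quotient_mul_card_subgroup U, hUc]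
      exact lt_mul_of_one_lt_right Nat.card_pos one_lt_two
    have hconn : ∀ q, Conn (π t) (π t) q → ∀ x ∈ Dset t, π x = q → Conn t t x := by
      intro q hq
      induction hq with
      | refl =>
        intro x hx e
        rw [hDinj x t hx (self_mem_Dset t) e]
        exact Relation.ReflTransGen.refl
      | tail _ hcd ihq =>
        intro x hx e
        obtain ⟨h1, -, h3⟩ := hcd
        obtain ⟨c', hc', hce⟩ := hDq _ h1
        refine (ihq c' hc' hce).tail ⟨hc', hx, hlift _ _ hc' hx ?_⟩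
        rw [hce, e, h3]
    obtain ⟨f, hf⟩ := hb
    exact hn (hconn _ (ih (π t) hlt hq (π b) ⟨π f, by rw [hf]; simp only [map_mul, map_inv]⟩)
      b ⟨f, hf⟩ rfl)
  · -- the centralizer is proper
    have hodd : ∀ x y : G, x ∈ C → y ∈ C → x ∈ Dset t → y ∈ Dset t → ¬ Conn t x y →
        ∀ hx : x ∈ C, ∀ hy : y ∈ C, ∃ g : C, (⟨y, hy⟩ : C) = g * ⟨x, hx⟩ * g⁻¹ := by
      intro x y hxC hyC hx hy hc hx' hy'
      obtain ⟨k, hk, hkx⟩ := exists_conj_mem_of_odd (h.ord_of_mem hx) (h.ord_of_mem hy)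
        (odd_of_not_conn h hx hy hc) hxC hyC
      exact ⟨⟨k, hk⟩, Subtype.ext hkx.symm⟩
    have hfus : ∀ (x : G) (hxC : x ∈ C), x ∈ Dset t → (⟨x, hxC⟩ : C) ∈ Dset (⟨a, haC⟩ : C) := by
      intro x hxC hx
      by_cases hc : Conn t a x
      · obtain ⟨g, hg⟩ := hodd a b' haC hb'C haD hb'D hab haC hb'C
        obtain ⟨g', hg'⟩ := hodd b' x hb'C hxC hb'D hx (fun e => hab (hc.trans e.symm)) hb'C hxC
        exact ⟨g' * g, by rw [hg', hg]; group⟩
      · exact hodd a x haC hxC haD hx hc haC hxC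
    have hyp := hyp_centralizer h haC haD
      (fun w hw => Subgroup.mem_centralizer_singleton_iff.mpr (hua w hw).symm) hfus
    have hlt : Nat.card C < Nat.card G := lt_of_le_of_ne (Subgroup.card_le_card_group C)
      fun e => hCtop (Subgroup.eq_top_of_card_eq C e)
    exact hab (conn_coe haD (ih (⟨a, haC⟩ : C) hlt hyp _ (hfus b' hb'C hb'D)))

/-- A group has only one component. -/
theorem connected_step
    (ih : ∀ {X : Type u} [Group X] [Finite X] (s : X), Nat.card X < Nat.card G → Hyp s →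
      ∀ x ∈ Dset s, Conn s s x)
    (h : Hyp t) : ∀ x ∈ Dset t, Conn t t x := by
  classical
  by_contra hall
  push Not at hall
  obtain ⟨b, hb, hn⟩ := hall
  have : Fact (Nat.Prime 2) := ⟨Nat.prime_two⟩
  set H := stab t ⊓ stab b with hH
  have hHodd : ¬ 2 ∣ Nat.card H := by
    intro h2
    obtain ⟨u, hu⟩ := exists_prime_orderOf_dvd_card' (G := H) 2 h2
    have h1 := not_two_stable ih h hb hn u.2.1 u.2.2
      (inv_mul_self (by rw [Subgroup.orderOf_coe, hu]))
    rw [show u = 1 from Subtype.ext h1, orderOf_one] at hu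
    omega
  have htb : t ∈ Dset b := Dset_eq hb ▸ self_mem_Dset t
  have htrans : ∀ a ∈ comp t, ∃ g ∈ H, g * t * g⁻¹ = a := by
    intro a ha
    have haD := comp_sub ha
    obtain ⟨x, hx1, hx2⟩ := exists_swap h (self_mem_Dset t) hb hn
    obtain ⟨y, hy1, hy2⟩ := exists_swap h haD hb (fun e => hn (Conn.trans ha e))
    have hg : y * x * t * (y * x)⁻¹ = a := by
      calc y * x * t * (y * x)⁻¹ = y * (x * t * x⁻¹) * y⁻¹ := by group
        _ = a := by rw [hx1, hy2]
    refine ⟨y * x, ⟨?_, ?_⟩, hg⟩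
    · show Conn t t (y * x * t * (y * x)⁻¹)
      rw [hg]; exact ha
    · show Conn b b (y * x * b * (y * x)⁻¹)
      refine Conn.congr htb ?_
      have e : y * x * b * (y * x)⁻¹ = y * t * y⁻¹ := by rw [← hx2]; group
      have h3 := Conn.conj ha y
      rw [hy1] at h3
      rw [e]
      exact h3.symm
  -- projection to the subgroup generated by the component
  choose pp hpp jj hjj hdec using fun g : H => stab_decomp h g.2.1
  have huniq : ∀ p ∈ Pd t, ∀ j ∈ Jgp t, ∀ p' ∈ Pd t, ∀ j' ∈ Jgp t,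
      p * j = p' * j' → j = j' := by
    intro p hp j hj p' hp' j' hj' e
    have e' : j' * j⁻¹ = p'⁻¹ * p := by
      calc j' * j⁻¹ = p'⁻¹ * (p' * j') * j⁻¹ := by group
        _ = p'⁻¹ * p := by rw [← e]; group
    have hb : j' * j⁻¹ ∈ Jgp t ⊓ Pd t :=
      Subgroup.mem_inf.mpr ⟨mul_mem hj' (inv_mem hj), e'.symm ▸ mul_mem (inv_mem hp') hp⟩
    rw [Jgp_inf_Pd h, Subgroup.mem_bot, mul_inv_eq_one] at hb
    exact hb.symm
  let π : H →* Jgp t := MonoidHom.mk' (fun g => ⟨jj g, hjj g⟩) fun g g' => Subtype.ext <| by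
    show jj (g * g') = jj g * jj g'
    refine huniq (pp (g * g')) (hpp _) (jj (g * g')) (hjj _) (pp g * pp g') (mul_mem (hpp g) (hpp g')) _
      (mul_mem (hjj g) (hjj g')) ?_
    rw [← hdec, Subgroup.coe_mul]
    conv_lhs => rw [hdec g, hdec g']
    calc pp g * jj g * (pp g' * jj g') = pp g * (jj g * pp g') * jj g' := by group
      _ = pp g * (pp g' * jj g) * jj g' := by rw [Pd_comm_Jgp h (hpp g') (hjj g)]
      _ = pp g * pp g' * (jj g * jj g') := by group
  obtain ⟨e⟩ := Jgp_iso h
  set K := π.range with hK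
  have hKodd : ¬ 2 ∣ Nat.card K := fun h2 => hHodd (h2.trans (Subgroup.card_range_dvd π))
  set St := (Subgroup.centralizer ({⟨t, self_mem_Jgp t⟩} : Set (Jgp t))).subgroupOf K with hSt
  let F : K → comp t := fun k => ⟨(k : Jgp t).1 * t * (k : Jgp t).1⁻¹,
    conj_mem_comp (Jgp_le_stab (k : Jgp t).2) (self_mem_comp t)⟩
  have hF : ∀ k k' : K, F k = F k' ↔ k⁻¹ * k' ∈ St := by
    intro k k'
    rw [hSt, Subgroup.mem_subgroupOf, Subgroup.mem_centralizer_singleton_iff, Subtype.ext_iff,
      Subtype.ext_iff]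
    simp only [F, Subgroup.coe_mul, Subgroup.coe_inv]
    constructor
    · intro he
      calc ((k : Jgp t) : G)⁻¹ * ((k' : Jgp t) : G) * t
          = ((k : Jgp t) : G)⁻¹ *
            (((k' : Jgp t) : G) * t * ((k' : Jgp t) : G)⁻¹) * ((k' : Jgp t) : G) := by group
        _ = t * (((k : Jgp t) : G)⁻¹ * ((k' : Jgp t) : G)) := by rw [← he]; group
    · intro he
      calc ((k : Jgp t) : G) * t * ((k : Jgp t) : G)⁻¹
          = ((k : Jgp t) : G) * (t * (((k : Jgp t) : G)⁻¹ * ((k' : Jgp t) : G))) *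
            ((k' : Jgp t) : G)⁻¹ := by group
        _ = ((k' : Jgp t) : G) * t * ((k' : Jgp t) : G)⁻¹ := by rw [← he]; group
  have hidx : St.index = 1463 := by
    rw [Subgroup.index_eq_card, ← card_comp h]
    refine Nat.card_congr (Equiv.ofBijective
      (Quotient.lift F (fun k k' hkk => (hF k k').mpr (QuotientGroup.leftRel_apply.mp hkk))) ⟨?_, ?_⟩)
    · rintro ⟨k⟩ ⟨k'⟩ he
      exact QuotientGroup.eq.mpr ((hF k k').mp he)
    · rintro ⟨x, hx⟩
      obtain ⟨g, hg, hgx⟩ := htrans x hx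
      refine ⟨QuotientGroup.mk ⟨π ⟨g, hg⟩, ⟨g, hg⟩, rfl⟩, Subtype.ext ?_⟩
      show jj ⟨g, hg⟩ * t * (jj ⟨g, hg⟩)⁻¹ = x
      rw [← hgx]
      conv_rhs => rw [show g = pp ⟨g, hg⟩ * jj ⟨g, hg⟩ from hdec ⟨g, hg⟩]
      set j := jj ⟨g, hg⟩ with hjdef
      set p := pp ⟨g, hg⟩ with hpdef
      have hc : p * (j * t * j⁻¹) = j * t * j⁻¹ * p := Pd_comm_Jgp h (hpp _)
        (mul_mem (mul_mem (hjj _) (self_mem_Jgp t)) (inv_mem (hjj _)))
      calc j * t * j⁻¹ = p * (j * t * j⁻¹) * p⁻¹ := by rw [hc, mul_inv_cancel_right]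
        _ = p * j * t * (p * j)⁻¹ := by group
  refine no_odd_subgroup (K.map e.toMonoidHom) ?_ ?_
  · rwa [Subgroup.card_map_of_injective e.injective]
  · rw [Subgroup.card_map_of_injective e.injective, ← St.index_mul_card, hidx]
    exact Dvd.intro _ rfl

theorem connected_aux : ∀ (n : ℕ) {X : Type u} [Group X] [Finite X] (s : X),
    Nat.card X ≤ n → Hyp s → ∀ x ∈ Dset s, Conn s s x := by
  intro n
  induction n with
  | zero =>
    intro X _ _ s hn
    exact absurd (Nat.card_pos (α := X)) (by omega)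
  | succ n ih =>
    intro X _ _ s hn hs
    exact connected_step (fun {Y} _ _ r hr => ih r (by omega)) hs

theorem normalClosure_iso (h : Hyp t) : Spor.IsoJ1 (Subgroup.normalClosure ({t} : Set G)) := by
  have he : Subgroup.normalClosure ({t} : Set G) = Jgp t := by
    refine le_antisymm ((Subgroup.closure_le _).mpr ?_) ((Subgroup.closure_le _).mpr ?_)
    · intro x hx
      obtain ⟨a, ha, hc⟩ := Group.mem_conjugatesOfSet_iff.mp hx
      rw [Set.mem_singleton_iff] at ha
      rw [ha] at hc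
      obtain ⟨g, hg⟩ := isConj_iff.mp hc
      exact Subgroup.subset_closure (connected_aux _ t le_rfl h x ⟨g, hg.symm⟩)
    · intro x hx
      obtain ⟨g, rfl⟩ := comp_sub hx
      exact Subgroup.normalClosure_normal.conj_mem _
        (Subgroup.subset_normalClosure (Set.mem_singleton t)) g
  obtain ⟨e⟩ := Jgp_iso h
  exact ⟨(MulEquiv.subgroupCongr he).trans e⟩

end Cfsg.Agent.H68.WeakJ1
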