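import Cfsg.Agent.H68.WeakJ1.Struct

/-!
The complement of the Sylow subgroup of the weak closure in its centralizer, and the resulting
facts at the level of conjugates of the involution.
-/

set_option autoImplicit false
set_option maxRecDepth 4000
set_option maxHeartbeats 1000000
set_option synthInstance.maxSize 4096

namespace Cfsg.Agent.H68.WeakJ1

open Cfsg.Agent.H30.TwoTimesA5 (M A τ)
open Cfsg.Agent.H68.J1

variable {G : Type*} [Group G] {t : G}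

theorem conj_mem_Pd {d p : G} (g : G) (hp : p ∈ Pd d) : g * p * g⁻¹ ∈ Pd (g * d * g⁻¹) := by
  refine Subgroup.mem_centralizer_iff.mpr ?_
  rintro w ⟨a, ha, hc, hw⟩
  have ha' : g⁻¹ * a * g⁻¹⁻¹ ∈ Dset d := by
    rw [Dset_eq ⟨g, rfl⟩] at ha
    exact conj_mem_Dset g⁻¹ ha
  have hc' : g⁻¹ * a * g⁻¹⁻¹ * d = d * (g⁻¹ * a * g⁻¹⁻¹) := by
    calc g⁻¹ * a * g⁻¹⁻¹ * d = g⁻¹ * (a * (g * d * g⁻¹)) * g := by group
      _ = g⁻¹ * (g * d * g⁻¹ * a) * g := by rw [hc]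
      _ = d * (g⁻¹ * a * g⁻¹⁻¹) := by group
  have h := Subgroup.mem_centralizer_iff.mp hp _ ⟨_, ha', hc', conj_mem_WC g⁻¹ hw⟩
  calc w * (g * p * g⁻¹) = g * ((g⁻¹ * w * g⁻¹⁻¹) * p) * g⁻¹ := by group
    _ = g * (p * (g⁻¹ * w * g⁻¹⁻¹)) * g⁻¹ := by rw [h]
    _ = g * p * g⁻¹ * w := by group

theorem Pd_comm_WC {p w : G} (hp : p ∈ Pd t) (hw : w ∈ WC t) : p * w = w * p :=
  (Subgroup.mem_centralizer_iff.mp hp w ⟨t, self_mem_Dset t, rfl, hw⟩).symm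

theorem Pd_comm_self {p : G} (hp : p ∈ Pd t) : p * t = t * p := Pd_comm_WC hp (self_mem_WC t)

namespace Loc

variable [Finite G] {L : Loc t} (s : Seven L)

theorem n_mem_normalizer : s.n ∈ Subgroup.normalizer (L.E : Set G) := by
  rw [s.hn]
  exact mul_mem L.y_mem_normalizer (mul_mem (mul_mem s.hm (inv_mem L.y_mem_normalizer)) (inv_mem s.hm))

theorem n_mem_Triv : s.n ∈ L.Triv := by
  rw [s.hn]
  refine mul_mem L.y_mem_Triv ⟨mul_mem (mul_mem s.hm (inv_mem L.y_mem_normalizer)) (inv_mem s.hm),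
    fun c hc => ?_⟩
  have hc' : s.m⁻¹ * c * s.m⁻¹⁻¹ ∈ L.CE := L.normalizer_conj_CE (inv_mem s.hm) hc
  have h := (inv_mem L.y_mem_Triv).2 _ hc'
  obtain ⟨z, hz⟩ := L.mem_E.mp ((Subgroup.mem_normalizer_iff.mp s.hm _).mp h)
  refine L.mem_E.mpr ⟨z, hz.trans ?_⟩
  group

theorem n_iter (i : ℕ) (x : Fin 8) :
    s.n ^ i * L.ι (emb x) * (s.n ^ i)⁻¹ = L.ι (emb (s.N^[i] x)) := conj_iter s.hN i x

/-- Every element of `E` other than one is a conjugate of `t` by a power of `n`. -/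
theorem exists_pow {x : Fin 8} (hx : x ≠ 0) : ∃ i : ℕ, s.n ^ i * t * (s.n ^ i)⁻¹ = L.ι (emb x) := by
  obtain ⟨i, hi⟩ := s.trans x hx
  refine ⟨i.1, ?_⟩
  have h := n_iter s i.1 1
  rwa [hi, L.emb_one] at h

/-- The fixed points of `n` in the centralizer of `E`. -/
def K : Subgroup G := L.CE ⊓ Subgroup.centralizer ({s.n} : Set G)

theorem mem_K {k : G} : k ∈ K s ↔ k ∈ L.CE ∧ k * s.n = s.n * k := by
  rw [K, Subgroup.mem_inf, Subgroup.mem_centralizer_singleton_iff]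

theorem K_inf_E {k : G} (hk : k ∈ K s) (hE : k ∈ L.E) : k = 1 := by
  obtain ⟨x, rfl⟩ := L.mem_E.mp hE
  have h := s.hN x
  rw [← ((mem_K s).mp hk).2, mul_inv_cancel_right] at h
  rw [s.fixed x (emb_inj (L.inj h)).symm, emb_values.1, map_one]

theorem exists_K_mul {c : G} (hc : c ∈ L.CE) : ∃ k ∈ K s, ∃ e ∈ L.E, c = k * e := by
  obtain ⟨z, hz⟩ := L.mem_E.mp ((n_mem_Triv s).2 c hc)
  obtain ⟨e, he⟩ := s.surj z
  have hne : s.n * L.ι (emb e) * s.n⁻¹ * L.ι (emb e) = L.ι (emb z) := by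
    rw [s.hN, ← map_mul, ← emb_xadd, he]
  have hee : L.ι (emb e) * L.ι (emb e) = 1 := by
    rw [← map_mul, ← emb_xadd, xadd_facts.1, emb_values.1, map_one]
  refine ⟨c * L.ι (emb e), (mem_K s).mpr ⟨mul_mem hc (L.E_le_CE (L.emb_mem_E e)), ?_⟩,
    L.ι (emb e), L.emb_mem_E e, by rw [mul_assoc, hee, mul_one]⟩
  have h1 : s.n * c * s.n⁻¹ = L.ι (emb z) * c := by rw [hz]; group
  have h2 : L.ι (emb z) * c = c * L.ι (emb z) := (L.mem_CE.mp hc z).symm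
  have h3 : s.n * L.ι (emb e) * s.n⁻¹ = L.ι (emb z) * L.ι (emb e) := by
    rw [← hne, mul_assoc (s.n * L.ι (emb e) * s.n⁻¹), hee, mul_one]
  have hzz : L.ι (emb z) * L.ι (emb z) = 1 := by
    rw [← map_mul, ← emb_xadd, xadd_facts.1, emb_values.1, map_one]
  symm
  calc s.n * (c * L.ι (emb e)) = (s.n * c * s.n⁻¹) * (s.n * L.ι (emb e) * s.n⁻¹) * s.n := by group
    _ = c * L.ι (emb z) * (L.ι (emb z) * L.ι (emb e)) * s.n := by rw [h1, h2, h3]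
    _ = c * L.ι (emb e) * s.n := by
      rw [mul_assoc c, ← mul_assoc (L.ι (emb z)) (L.ι (emb z)), hzz, one_mul]

theorem K_comm_y {k : G} (hk : k ∈ K s) : k * L.y = L.y * k := by
  set c0 := (s.n ^ s.j.1)⁻¹ * (L.y⁻¹ * s.n * L.y) with hc0
  have hT : c0 ∈ L.Triv := mul_mem (inv_mem (pow_mem (n_mem_Triv s) _))
    (mul_mem (mul_mem (inv_mem L.y_mem_Triv) (n_mem_Triv s)) L.y_mem_Triv)
  have hc0E : c0 ∈ L.CE := L.mem_CE.mpr fun x => by
    have hy2 : ∀ z, L.y⁻¹ * L.ι (emb z) * L.y = L.ι (emb (sp (sp z))) := fun z => by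
      have h3 : sp (sp (sp z)) = z := sp_iter_three z
      conv_lhs => rw [← h3, ← L.y_conj]
      group
    have h : (L.y⁻¹ * s.n * L.y) * L.ι (emb x) * (L.y⁻¹ * s.n * L.y)⁻¹ =
        s.n ^ s.j.1 * L.ι (emb x) * (s.n ^ s.j.1)⁻¹ := by
      rw [n_iter, ← s.rel, ← hy2, ← s.hN, ← L.y_conj]
      group
    refine mul_inv_eq_iff_eq_mul.mp ?_
    calc c0 * L.ι (emb x) * c0⁻¹ = (s.n ^ s.j.1)⁻¹ *
          ((L.y⁻¹ * s.n * L.y) * L.ι (emb x) * (L.y⁻¹ * s.n * L.y)⁻¹) * s.n ^ s.j.1 := by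
          rw [hc0]; group
      _ = L.ι (emb x) := by rw [h]; group
  obtain ⟨k0, hk0, e, he, hce⟩ := exists_K_mul s hc0E
  obtain ⟨hkE, hkn⟩ := (mem_K s).mp hk
  have hek : e * k = k * e := by
    obtain ⟨z, rfl⟩ := L.mem_E.mp he
    exact (L.mem_CE.mp hkE z).symm
  have hck : c0 * k = k * c0 := by
    have hd := hT.2 k hkE
    have e2 : c0 * k * c0⁻¹ = k0 * k * k0⁻¹ := by
      rw [hce]
      calc k0 * e * k * (k0 * e)⁻¹ = k0 * (e * k) * e⁻¹ * k0⁻¹ := by group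
        _ = k0 * k * k0⁻¹ := by rw [hek]; group
    have hdK : c0 * k * c0⁻¹ * k⁻¹ ∈ K s :=
      e2 ▸ mul_mem (mul_mem (mul_mem hk0 hk) (inv_mem hk0)) (inv_mem hk)
    have h := K_inf_E s hdK hd
    calc c0 * k = (c0 * k * c0⁻¹ * k⁻¹) * k * c0 := by group
      _ = k * c0 := by rw [h, one_mul]
  have hconj : Commute k (L.y⁻¹ * s.n * L.y) := by
    have e3 : L.y⁻¹ * s.n * L.y = s.n ^ s.j.1 * c0 := by rw [hc0, mul_inv_cancel_left]
    rw [e3]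
    exact ((show Commute k s.n from hkn).pow_right _).mul_right hck.symm
  have hyk : L.y * k * L.y⁻¹ ∈ K s := by
    refine (mem_K s).mpr ⟨L.normalizer_conj_CE L.y_mem_normalizer hkE, ?_⟩
    calc L.y * k * L.y⁻¹ * s.n = L.y * (k * (L.y⁻¹ * s.n * L.y)) * L.y⁻¹ := by group
      _ = L.y * (L.y⁻¹ * s.n * L.y * k) * L.y⁻¹ := by rw [hconj.eq]
      _ = s.n * (L.y * k * L.y⁻¹) := by group
  have h := K_inf_E s (mul_mem hyk (inv_mem hk)) (L.y_mem_Triv.2 k hkE)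
  calc k * L.y = (L.y * k * L.y⁻¹ * k⁻¹) * k * L.y := by rw [h, one_mul]
    _ = L.y * k := by group

theorem K_comm_WC {k : G} (hk : k ∈ K s) {w : G} (hw : w ∈ WC t) : k * w = w * k := by
  obtain ⟨hkE, -⟩ := (mem_K s).mp hk
  obtain ⟨v, hv, hX⟩ := L.CE_decomp hkE
  have hy := hX L.y (L.range_mem mS)
  have hky := K_comm_y s hk
  have h1 : Commute (L.ι (emb v))⁻¹ L.y := by
    have h : Commute ((L.ι (emb v))⁻¹ * k * k⁻¹) L.y :=
      (show Commute ((L.ι (emb v))⁻¹ * k) L.y from hy).mul_left (show Commute k L.y from hky).inv_left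
    rwa [mul_inv_cancel_right] at h
  have h2 := h1.inv_left
  rw [inv_inv] at h2
  have hv0 : sp v = v := emb_inj (L.inj (by
    rw [← L.y_conj, ← h2.eq, mul_inv_cancel_right]))
  have := hX w hw
  rwa [sp_fix_V v hv hv0, emb_values.1, map_one, inv_one, one_mul] at this

theorem K_comm_WC_E {k : G} (hk : k ∈ K s) {x : Fin 8} (hx : x ≠ 0) {w : G}
    (hw : w ∈ WC (L.ι (emb x))) : k * w = w * k := by
  obtain ⟨i, hi⟩ := exists_pow s hx
  rw [← hi] at hw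
  have hw' : (s.n ^ i)⁻¹ * w * (s.n ^ i)⁻¹⁻¹ ∈ WC t := by
    have h := conj_mem_WC (s.n ^ i)⁻¹ hw
    have e : (s.n ^ i)⁻¹ * (s.n ^ i * t * (s.n ^ i)⁻¹) * (s.n ^ i)⁻¹⁻¹ = t := by group
    rwa [e] at h
  have h1 : Commute k ((s.n ^ i)⁻¹ * w * (s.n ^ i)⁻¹⁻¹) := K_comm_WC s hk hw'
  have h2 : Commute k (s.n ^ i) := (show Commute k s.n from ((mem_K s).mp hk).2).pow_right i
  have h3 := (h2.mul_right h1).mul_right h2.inv_right
  have e : s.n ^ i * ((s.n ^ i)⁻¹ * w * (s.n ^ i)⁻¹⁻¹) * (s.n ^ i)⁻¹ = w := by group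
  rw [e] at h3
  exact h3

theorem exists_conj_E {a : G} (ha : a ∈ Dset t) (hc : a * t = t * a) :
    ∃ w ∈ WC t, ∃ x : Fin 8, x ≠ 0 ∧ a = w * L.ι (emb x) * w⁻¹ := by
  obtain ⟨m, rfl⟩ : a ∈ L.ι.range := L.range_eq ▸ mem_WC ha hc
  obtain ⟨g, hg⟩ := ha
  have h2 : m * m = 1 := L.inj (by rw [map_mul, hg, map_one, conj_mul, L.tt]; group)
  have h1 : m ≠ 1 := fun e => by
    subst e
    rw [map_one] at hg
    exact L.t_ne (conj_eq_one_iff.mp hg.symm)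
  obtain ⟨k, x, hx, rfl⟩ := invol_conj_emb m h2 h1
  exact ⟨_, L.range_mem k, x, hx, L.conj_iota_emb k x⟩

theorem K_le_Pd : K s ≤ Pd t := by
  intro k hk
  refine Subgroup.mem_centralizer_iff.mpr ?_
  rintro w ⟨a, ha, hc, hw⟩
  obtain ⟨u, hu, x, hx, rfl⟩ := exists_conj_E (L := L) ha hc
  have hw' : u⁻¹ * w * u⁻¹⁻¹ ∈ WC (L.ι (emb x)) := by
    have h := conj_mem_WC u⁻¹ hw
    have e : u⁻¹ * (u * L.ι (emb x) * u⁻¹) * u⁻¹⁻¹ = L.ι (emb x) := by group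
    rwa [e] at h
  have h1 : Commute k u := K_comm_WC s hk hu
  have h2 : Commute k (u⁻¹ * w * u⁻¹⁻¹) := K_comm_WC_E s hk hx hw'
  have h3 := (h1.mul_right h2).mul_right h1.inv_right
  have e : u * (u⁻¹ * w * u⁻¹⁻¹) * u⁻¹ = w := by group
  rw [e] at h3
  exact h3.symm

include s in
theorem Pd_inf_E {p : G} (hp : p ∈ Pd t) (hE : p ∈ L.E) : p = 1 := by
  obtain ⟨z, rfl⟩ := L.mem_E.mp hE
  have hz : z = 0 ∨ z = 1 := emb_comm_mY z (L.inj (by
    rw [map_mul, map_mul]; exact Pd_comm_WC hp (L.range_mem mY)))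
  rcases hz with rfl | rfl
  · rw [emb_values.1, map_one]
  exfalso
  have hn1 : s.n * t * s.n⁻¹ = L.ι (emb (s.N 1)) := by
    have h := s.hN 1
    rwa [L.emb_one] at h
  have ha : s.n * t * s.n⁻¹ ∈ Dset t := ⟨s.n, rfl⟩
  have hc : s.n * t * s.n⁻¹ * t = t * (s.n * t * s.n⁻¹) :=
    hn1 ▸ L.E_comm (L.emb_mem_E _) L.t_mem_E
  obtain ⟨z', hz'⟩ := L.mem_normalizer (inv_mem (n_mem_normalizer s)) 1
  rw [inv_inv] at hz'
  have h1 := Subgroup.mem_centralizer_iff.mp hp _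
    ⟨_, ha, hc, conj_mem_WC s.n (L.range_mem mY)⟩
  have h2 : L.ι (emb z') * L.ι mY = L.ι mY * L.ι (emb z') := by
    rw [← hz']
    calc s.n⁻¹ * L.ι (emb 1) * s.n * L.ι mY
        = s.n⁻¹ * (L.ι (emb 1) * (s.n * L.ι mY * s.n⁻¹)) * s.n := by group
      _ = s.n⁻¹ * (s.n * L.ι mY * s.n⁻¹ * L.ι (emb 1)) * s.n := by rw [h1]
      _ = L.ι mY * (s.n⁻¹ * L.ι (emb 1) * s.n) := by group
  rcases emb_comm_mY z' (L.inj (by rw [map_mul, map_mul]; exact h2)) with rfl | rfl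
  · rw [emb_values.1, map_one] at hz'
    exact absurd (conj_eq_one_iff.mp (show s.n⁻¹ * L.ι (emb 1) * s.n⁻¹⁻¹ = 1 by
      rw [inv_inv]; exact hz')) (by rw [L.emb_one]; exact L.t_ne)
  · refine absurd (s.fixed 1 (emb_inj (L.inj ?_))) (by decide)
    rw [← s.hN]
    conv_lhs => rw [← hz']
    group

theorem Pd_eq_K : Pd t = K s := by
  refine le_antisymm (fun p hp => ?_) (K_le_Pd s)
  have hpE : p ∈ L.CE := L.mem_CE.mpr fun x => Pd_comm_WC hp (L.range_mem _)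
  obtain ⟨k, hk, e, he, rfl⟩ := exists_K_mul s hpE
  have h := mul_mem (inv_mem (K_le_Pd s hk)) hp
  rw [inv_mul_cancel_left] at h
  rwa [Pd_inf_E s h he, mul_one]

theorem n_pow_mem (i : ℕ) : s.n ^ i ∈ WC t ⊔ WC (L.ι mX) := by
  refine pow_mem ?_ i
  rw [s.hn]
  refine mul_mem (Subgroup.mem_sup_left (L.range_mem mS)) (Subgroup.mem_sup_right ?_)
  rw [← s.hmt]
  exact conj_mem_WC s.m (inv_mem (L.range_mem mS))

end Loc

variable [Finite G]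

theorem Hyp.exists_loc (h : Hyp t) : ∃ L : Loc t, Nonempty (Loc.Seven L) := by
  obtain ⟨L⟩ := h.nonempty_loc
  exact ⟨L, L.exists_seven⟩

/-- All involutions of the weak closure are conjugate to `t`. -/
theorem Hyp.invol_mem (h : Hyp t) {x : G} (hx : x ∈ WC t) (h2 : x * x = 1) (h1 : x ≠ 1) :
    x ∈ Dset t := by
  obtain ⟨L, -⟩ := h.exists_loc
  obtain ⟨m, rfl⟩ : x ∈ L.ι.range := L.range_eq ▸ hx
  exact L.invol_mem_Dset (L.inj (by rw [map_mul, h2, map_one]))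
    (fun e => h1 (by rw [e, map_one]))

theorem Hyp.decomp (h : Hyp t) {c : G} (hc : c * t = t * c) :
    ∃ p ∈ Pd t, ∃ w ∈ WC t, c = p * w := by
  obtain ⟨L, ⟨s⟩⟩ := h.exists_loc
  obtain ⟨x, hx, w, hw, -, rfl⟩ := L.cent_decomp hc
  obtain ⟨k, hk, e, he, rfl⟩ := Loc.exists_K_mul s hx
  obtain ⟨z, rfl⟩ := L.mem_E.mp he
  exact ⟨k, Loc.K_le_Pd s hk, _, mul_mem (L.range_mem _) hw, by rw [mul_assoc]⟩

theorem Hyp.Pd_inf_WC (h : Hyp t) {x : G} (hP : x ∈ Pd t) (hW : x ∈ WC t) : x = 1 := by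
  obtain ⟨L, ⟨s⟩⟩ := h.exists_loc
  obtain ⟨m, rfl⟩ : x ∈ L.ι.range := L.range_eq ▸ hW
  have hc : ∀ b : M, m * b = b * m := fun b => L.inj (by
    rw [map_mul, map_mul]; exact Pd_comm_WC hP (L.range_mem b))
  rcases H30.TwoTimesA5.central_eq m (hc _) (hc _) with rfl | rfl
  · exact map_one _
  · exact Loc.Pd_inf_E s hP (by rw [L.map_tau]; exact L.t_mem_E)

/-- Commuting conjugates have the same complement. -/
theorem Hyp.Pd_eq (h : Hyp t) {a : G} (ha : a ∈ Dset t) (hc : a * t = t * a) : Pd a = Pd t := by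
  obtain ⟨L, ⟨s⟩⟩ := h.exists_loc
  obtain ⟨u, hu, x, hx, rfl⟩ := Loc.exists_conj_E (L := L) ha hc
  obtain ⟨i, hi⟩ := Loc.exists_pow s hx
  set g := u * s.n ^ i with hg
  have hag : u * L.ι (emb x) * u⁻¹ = g * t * g⁻¹ := by rw [hg, ← hi]; group
  have hcomm : ∀ p ∈ Pd t, g * p * g⁻¹ = p := fun p hp => by
    have h1 : Commute p u := Pd_comm_WC hp hu
    rw [Loc.Pd_eq_K s] at hp
    have h2 : Commute p (s.n ^ i) := (show Commute p s.n from ((Loc.mem_K s).mp hp).2).pow_right i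
    exact mul_inv_eq_iff_eq_mul.mpr (h1.mul_right h2).eq.symm
  rw [hag]
  ext p
  constructor
  · intro hp
    have h1 := conj_mem_Pd g⁻¹ hp
    have e : g⁻¹ * (g * t * g⁻¹) * g⁻¹⁻¹ = t := by group
    rw [e] at h1
    have h2 := hcomm _ h1
    have e2 : g * (g⁻¹ * p * g⁻¹⁻¹) * g⁻¹ = p := by group
    rw [e2] at h2
    rw [h2]; exact h1
  · intro hp
    exact hcomm p hp ▸ conj_mem_Pd g hp

/-- A commuting conjugate is conjugate by an element generated by two weak closures. -/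
theorem Hyp.conj_comm (h : Hyp t) {a : G} (ha : a ∈ Dset t) (hc : a * t = t * a) :
    ∃ b, b ∈ Dset t ∧ b * t = t * b ∧ ∃ g ∈ WC t ⊔ WC b, g * t * g⁻¹ = a := by
  obtain ⟨L, ⟨s⟩⟩ := h.exists_loc
  obtain ⟨u, hu, x, hx, rfl⟩ := Loc.exists_conj_E (L := L) ha hc
  obtain ⟨i, hi⟩ := Loc.exists_pow s hx
  refine ⟨L.ι mX, ⟨s.m, s.hmt.symm⟩, WC_comm (L.range_mem mX), u * s.n ^ i,
    mul_mem (Subgroup.mem_sup_left hu) (Loc.n_pow_mem s i), ?_⟩
  rw [← hi]; group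

/-- A subgroup whose every 2-overgroup centralises the involution. -/
theorem Hyp.two_central (h : Hyp t) : ∃ E : Subgroup G, E ≤ WC t ∧ t ∈ E ∧ IsPGroup 2 E ∧
    ∀ R : Subgroup G, IsPGroup 2 R → E ≤ R → ∀ r ∈ R, r * t = t * r := by
  obtain ⟨L, -⟩ := h.exists_loc
  exact ⟨L.E, L.range_eq ▸ Subgroup.map_le_range _ _, L.t_mem_E, L.isPGroup_E,
    fun R hR hER r hr => L.two_group_comm hR hER hr⟩

end Cfsg.Agent.H68.WeakJ1
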