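import Cfsg.Agent.H68.J1.Local
import Cfsg.Agent.H68.J1.Unique

/-!
Finite facts on `C2 × A5` and on linear maps of its Sylow 2-subgroup, for the characterisation of
J1 by the weak closure of an involution.
-/

set_option autoImplicit false
set_option maxRecDepth 8000
set_option maxHeartbeats 1000000
set_option synthInstance.maxSize 4096

namespace Cfsg.Agent.H68.WeakJ1

open Cfsg.Agent.H30.TwoTimesA5 (M A τ vA card_M)
open Cfsg.Agent.H68.J1

theorem xadd_cancel : ∀ x y : Fin 8, xadd (xadd x y) y = x := by decide +kernel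

theorem xadd_facts : (∀ x : Fin 8, xadd x x = 0) ∧ ∀ x : Fin 8, xadd x 0 = x := by decide +kernel

theorem lmap_xadd : ∀ a b c x y : Fin 8, lmap a b c (xadd x y) =
    xadd (lmap a b c x) (lmap a b c y) := by decide +kernel

/-- Every involution is conjugate into the Sylow subgroup. -/
theorem invol_conj_emb (m : M) (h2 : m * m = 1) (h1 : m ≠ 1) :
    ∃ k : M, ∃ x : Fin 8, x ≠ 0 ∧ k * emb x * k⁻¹ = m := by
  by_cases hf : m.1 = 1
  · obtain ⟨k, hk⟩ := invol_conj m hf h2 h1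
    exact ⟨k, 2, by decide, by rw [emb_values.2.2.1]; exact hk⟩
  by_cases hτ : m = τ
  · exact ⟨1, 1, by decide, by rw [emb_values.2.1, hτ, one_mul, inv_one, mul_one]⟩
  have hc := H30.TwoTimesA5.tau_central m
  have hs : τ * m * (τ * m) = 1 := by
    rw [mul_assoc, ← mul_assoc m τ m, ← hc, mul_assoc, ← mul_assoc τ τ (m * m),
      H30.TwoTimesA5.tau_ne.2, h2, one_mul]
  have hne : τ * m ≠ 1 := fun h => hτ (by
    rw [← one_mul m, ← H30.TwoTimesA5.tau_ne.2, mul_assoc, h, mul_one])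
  obtain ⟨k, hk⟩ := invol_conj (τ * m) ((H30.TwoTimesA5.tau_mul_fst m).mpr hf) hs hne
  refine ⟨k, 3, by decide, ?_⟩
  rw [emb_values.2.2.2.1]
  calc k * (τ * mX) * k⁻¹ = (k * τ) * mX * k⁻¹ := by group
    _ = τ * (k * mX * k⁻¹) := by rw [← H30.TwoTimesA5.tau_central k]; group
    _ = m := by rw [hk, ← mul_assoc, H30.TwoTimesA5.tau_ne.2, one_mul]

theorem span_orbit : ∀ x z : Fin 8, x ≠ 0 → x ≠ 1 → ∃ a b c : Fin 2,
    τ ^ a.1 * emb x ^ b.1 * emb (sp x) ^ c.1 = emb z := by decide +kernel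

theorem odd_invariant_set : ∀ T : Finset (Fin 8), (0 : Fin 8) ∉ T → (1 : Fin 8) ∈ T →
    (∀ x ∈ T, sp x ∈ T) → (∃ x ∈ T, x ≠ 1) → ¬ 2 ∣ T.card → ∀ x : Fin 8, x ≠ 0 → x ∈ T := by
  decide +kernel

/-- the involutions of the four group -/
def isV (x : Fin 8) : Bool := x == 2 || x == 4 || x == 6

/-- the elements of the four group -/
def inV (x : Fin 8) : Bool := x == 0 || isV x

theorem v_three : ∀ x : Fin 8, isV x = true → ∃ p q : A, p ^ 3 = 1 ∧ q ^ 3 = 1 ∧
    ((1, p * q) : M) = emb x := by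
  intro x hx
  have h : ∀ x : Fin 8, isV x = true → x = 2 ∨ x = 4 ∨ x = 6 := by decide
  have hA : ∃ p q : A, p ^ 3 = 1 ∧ q ^ 3 = 1 ∧ p * q = vA := by decide +kernel
  obtain ⟨p, q, hp, hq, hpq⟩ := hA
  have h1 : (emb x).1 = 1 ∧ emb x * emb x = 1 ∧ emb x ≠ 1 := by
    rcases h x hx with rfl | rfl | rfl <;> decide +kernel
  obtain ⟨k, hk⟩ := invol_conj _ h1.1 h1.2.1 h1.2.2
  refine ⟨k.2 * p * k.2⁻¹, k.2 * q * k.2⁻¹, by rw [conj_pow, hp, mul_one, mul_inv_cancel],
    by rw [conj_pow, hq, mul_one, mul_inv_cancel], ?_⟩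
  rw [← hk]
  refine Prod.ext ?_ ?_
  · show (1 : Multiplicative (ZMod 2)) = k.1 * 1 * k.1⁻¹
    rw [mul_one, mul_inv_cancel]
  · show k.2 * p * k.2⁻¹ * (k.2 * q * k.2⁻¹) = k.2 * vA * k.2⁻¹
    rw [← hpq]; group

theorem fst_emb : ∀ x : Fin 8, (emb x).1 = 1 → x ≠ 0 → isV x = true := by decide +kernel

theorem lmap_stab : ∀ b c : Fin 8, isV b = true → isV c = true → b ≠ c →
    (∃ i : Fin 3, ∀ x, lmap 1 b c x = sp^[i.1] x) ∨
    ((∀ x, lmap 1 b c (lmap 1 b c x) = x) ∧ ∃ z, isV z = true ∧ lmap 1 b c z = z ∧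
      (∃ u, isV u = true ∧ lmap 1 b c u ≠ u) ∧
      ∀ x, lmap 1 b c x = x ∨ lmap 1 b c x = xadd x z) := by decide +kernel

/-- No transvection fixing the first coordinate and an involution `z` of the four group leaves
invariant a four group avoiding `z`. -/
theorem transvection_no_plane : ∀ b c : Fin 8, isV b = true → isV c = true → b ≠ c →
    ∀ z, isV z = true → lmap 1 b c z = z → (∃ u, isV u = true ∧ lmap 1 b c u ≠ u) →
    ∀ b' c' : Fin 8, (∀ x, lmap z b' c' x = 0 → x = 0) →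
    (∀ x, inV x = true → ∃ x', inV x' = true ∧ lmap 1 b c (lmap z b' c' x) = lmap z b' c' x') →
    False := by decide +kernel

theorem sp_iter_three : ∀ x : Fin 8, sp^[3] x = x := by decide +kernel

theorem sp_iter_fix : ∀ i : Fin 3, (∃ x, sp^[i.1] x ≠ x) →
    ∀ x : Fin 8, x ≠ 0 → x ≠ 1 → sp^[i.1] x ≠ x := by decide +kernel

/-- The element of order seven built from a map moving the first coordinate to the second. -/
theorem frobenius_shape : ∀ b c : Fin 8, (∀ x, lmap 2 b c x = 0 → x = 0) →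
    (∀ k : Fin 3, lmap 2 b c (sp^[k.1] (lmap 2 b c 1)) = 1 → ∃ l : Fin 3,
      ∀ x, lmap 2 b c (sp^[k.1] (lmap 2 b c x)) = sp^[l.1] x) →
    (∀ k k' : Fin 3, lmap 2 b c (sp^[k.1] (lmap 2 b c (sp^[k'.1] (lmap 2 b c 1)))) = 1 →
      ∃ l : Fin 3, ∀ x, lmap 2 b c (sp^[k.1] (lmap 2 b c (sp^[k'.1] (lmap 2 b c x)))) =
        sp^[l.1] x) →
    (∀ x, lmap 2 b c ((lmap 2 b c)^[20] x) = x) ∧
    (let N := fun x => sp (lmap 2 b c (sp (sp ((lmap 2 b c)^[20] x))))
     (∀ x, x ≠ 0 → ∃ i : Fin 7, N^[i.1] 1 = x) ∧ (∀ x, N x = x → x = 0) ∧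
       (∀ z, ∃ e, xadd (N e) e = z) ∧
       ∃ j : Fin 7, ∀ x, sp (sp (N (sp x))) = N^[j.1] x) := by decide +kernel

theorem aut_inner : ∀ z : M, z ^ 3 = 1 → (mX * z) ^ 5 = 1 →
    z * mX * z⁻¹ * mX * z * mX * z⁻¹ * mX * z = mB →
    ∃ v : Fin 8, inV v = true ∧ emb v * mY * (emb v)⁻¹ = z := by decide +kernel

theorem mY_facts : mY ^ 3 = 1 ∧ (mX * mY) ^ 5 = 1 ∧
    mY * mX * mY⁻¹ * mX * mY * mX * mY⁻¹ * mX * mY = mB := by decide +kernel

/-- Generators of the centralizer. -/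
theorem eq_top_of_gens (J : Subgroup M) (h0 : τ ∈ J) (h1 : mX ∈ J) (h2 : mY ∈ J) : J = ⊤ := by
  have hev : ∀ w : List Nat, evM w ∈ J := by
    intro w
    induction w with
    | nil => exact J.one_mem
    | cons l w ih =>
      refine mul_mem ?_ ih
      match l with
      | 0 => exact h0
      | 1 => exact h0
      | 2 => exact h1
      | 3 => exact h1
      | 4 => exact h2
      | 5 => exact inv_mem h2
      | n + 6 => exact J.one_mem
  have : Fact (Nat.Prime 3) := ⟨Nat.prime_three⟩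
  have : Fact (Nat.Prime 5) := ⟨by norm_num⟩
  have h8 : V8 ≤ J := by
    intro m hm
    obtain ⟨x, rfl⟩ := exists_emb m (mem_V8.mp hm).1 (mem_V8.mp hm).2
    rw [emb]
    have hite : ∀ (p : Prop) [Decidable p] (m : M), m ∈ J → (if p then m else 1) ∈ J := by
      intro p _ m hm
      split_ifs
      · exact hm
      · exact J.one_mem
    exact mul_mem (mul_mem (hite _ _ h0) (hite _ _ h1)) (hite _ mB (hev wB))
  have d3 : 3 ∣ Nat.card J := by
    rw [← orderOf_eq_prime gen_orders.1 gen_orders.2.1, ← Subgroup.orderOf_mk mS (hev wS)]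
    exact orderOf_dvd_natCard _
  have d5 : 5 ∣ Nat.card J := by
    have h := orderOf_dvd_natCard (⟨mF, hev wF⟩ : J)
    rwa [← Subgroup.orderOf_coe, orderOf_eq_prime (mF_facts.1) (mF_facts.2.1)] at h
  have d8 : 8 ∣ Nat.card J := card_V8 ▸ Subgroup.card_dvd_of_le h8
  have h120 : 8 * 3 * 5 ∣ Nat.card J :=
    (show Nat.Coprime (8 * 3) 5 by norm_num).mul_dvd_of_dvd_of_dvd
      ((show Nat.Coprime 8 3 by norm_num).mul_dvd_of_dvd_of_dvd d8 d3) d5
  exact Subgroup.eq_top_of_card_eq _ (le_antisymm (Subgroup.card_le_card_group J) (by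
    rw [Nat.card_eq_fintype_card (α := M), card_M]
    exact Nat.le_of_dvd Nat.card_pos h120))

theorem emb_comm_mY : ∀ z : Fin 8, emb z * mY = mY * emb z → z = 0 ∨ z = 1 := by decide +kernel

theorem sp_fix_V : ∀ v : Fin 8, inV v = true → sp v = v → v = 0 := by decide +kernel

/-- A normal subgroup of odd order is trivial. -/
theorem odd_normal_eq_bot (Q : Subgroup M) [Q.Normal] (h : ¬ 2 ∣ Nat.card Q) : Q = ⊥ := by
  have : IsSimpleGroup A := alternatingGroup.isSimpleGroup_five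
  set f : M →* A := MonoidHom.snd _ _ with hf
  have hn : (Q.map f).Normal := Subgroup.Normal.map inferInstance f (fun a => ⟨(1, a), rfl⟩)
  have hd : Nat.card (Q.map f) ∣ Nat.card Q := Subgroup.card_map_dvd _ _
  rcases hn.eq_bot_or_eq_top with hb | ht
  · refine eq_bot_iff.mpr fun q hq => ?_
    have hsnd : q.2 = 1 := Subgroup.mem_bot.mp (hb ▸ Subgroup.mem_map_of_mem f hq)
    have hsq : q ^ 2 = 1 := Prod.ext ((by decide : ∀ a : Multiplicative (ZMod 2), a ^ 2 = 1) q.1)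
      (by show q.2 ^ 2 = 1; rw [hsnd, one_pow])
    by_contra hne
    refine h ?_
    have := orderOf_dvd_natCard (⟨q, hq⟩ : Q)
    rwa [Subgroup.orderOf_mk, orderOf_eq_prime hsq (fun e => hne (Subgroup.mem_bot.mpr e))] at this
  · refine absurd (dvd_trans ?_ hd) h
    rw [ht, Subgroup.card_top, Nat.card_eq_fintype_card, H30.TwoTimesA5.card_A]
    norm_num

end Cfsg.Agent.H68.WeakJ1
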