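import Cfsg.Agent.H68.WeakJ1.Data

/-!
Fusion in the Sylow 2-subgroup of a weak closure isomorphic to `C2 × A5`.
-/

set_option autoImplicit false
set_option maxRecDepth 4000
set_option maxHeartbeats 1000000
set_option synthInstance.maxSize 4096

namespace Cfsg.Agent.H68.WeakJ1

open Cfsg.Agent.H30.TwoTimesA5 (M A τ orbitBy card_orbitBy)
open Cfsg.Agent.H68.J1

variable {G : Type*} [Group G]

/-- The conjugates of `t`. -/
def Dset (t : G) : Set G := {x | ∃ g : G, x = g * t * g⁻¹}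

/-- The weak closure of `t` in its centralizer. -/
def WC (t : G) : Subgroup G :=
  Subgroup.closure {x : G | ∃ g : G, x = g * t * g⁻¹ ∧ x * t = t * x}

theorem self_mem_Dset (t : G) : t ∈ Dset t := ⟨1, by group⟩

theorem conj_mem_Dset {t x : G} (g : G) (hx : x ∈ Dset t) : g * x * g⁻¹ ∈ Dset t := by
  obtain ⟨h, rfl⟩ := hx
  exact ⟨g * h, by group⟩

theorem Dset_eq {t x : G} (hx : x ∈ Dset t) : Dset x = Dset t := by
  obtain ⟨g, rfl⟩ := hx
  ext y
  constructor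
  · rintro ⟨h, rfl⟩; exact ⟨h * g, by group⟩
  · rintro ⟨h, rfl⟩; exact ⟨h * g⁻¹, by group⟩

theorem mem_WC {t x : G} (hx : x ∈ Dset t) (hc : x * t = t * x) : x ∈ WC t := by
  obtain ⟨g, rfl⟩ := hx
  exact Subgroup.subset_closure ⟨g, rfl, hc⟩

theorem self_mem_WC (t : G) : t ∈ WC t := mem_WC (self_mem_Dset t) rfl

theorem WC_comm {t w : G} (hw : w ∈ WC t) : w * t = t * w := by
  refine Subgroup.mem_centralizer_singleton_iff.mp
    ((Subgroup.closure_le _).mpr ?_ hw : w ∈ Subgroup.centralizer ({t} : Set G))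
  rintro x ⟨_, _, h⟩
  exact Subgroup.mem_centralizer_singleton_iff.mpr h

theorem conj_mem_WC {t w : G} (g : G) (hw : w ∈ WC t) : g * w * g⁻¹ ∈ WC (g * t * g⁻¹) := by
  have h : w ∈ (WC (g * t * g⁻¹)).comap (MulAut.conj g).toMonoidHom := by
    refine (Subgroup.closure_le _).mpr ?_ hw
    rintro x ⟨h, rfl, hc⟩
    refine mem_WC ⟨g * h * g⁻¹, ?_⟩ ?_
    · simp only [MulEquiv.coe_toMonoidHom, MulAut.conj_apply]; group
    · simp only [MulEquiv.coe_toMonoidHom, MulAut.conj_apply]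
      rw [show g * (h * t * h⁻¹) * g⁻¹ * (g * t * g⁻¹) = g * (h * t * h⁻¹ * t) * g⁻¹ by group, hc]
      group
  exact h

theorem conj_mem_WC' {t w c : G} (hc : c * t = t * c) (hw : w ∈ WC t) : c * w * c⁻¹ ∈ WC t := by
  have h := conj_mem_WC c hw
  rwa [hc, mul_inv_cancel_right] at h

/-- The hypothesis. -/
structure Hyp [Finite G] (t : G) : Prop where
  ord : orderOf t = 2
  syl : ∃ S : Sylow 2 G, t ∈ (S : Subgroup G) ∧ ∀ s ∈ (S : Subgroup G), s * t = t * s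
  iso : Nonempty (WC t ≃* M)

/-- An involution, its weak closure, and a Sylow subgroup. -/
structure Loc [Finite G] (t : G) where
  S : Sylow 2 G
  ι : M →* G
  inj : Function.Injective ι
  range_eq : ι.range = WC t
  map_tau : ι τ = t
  emb_mem : ∀ x, ι (emb x) ∈ (S : Subgroup G)
  htc : ∀ s ∈ (S : Subgroup G), s * t = t * s

/-- A 2-subgroup of an intermediate subgroup is conjugate in it into a Sylow subgroup. -/
theorem conj_into_sylow [Finite G] (S : Sylow 2 G) {K : Subgroup G} (hSK : (S : Subgroup G) ≤ K)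
    {R : Subgroup G} (hR : IsPGroup 2 R) (hRK : R ≤ K) :
    ∃ c ∈ K, ∀ r ∈ R, c * r * c⁻¹ ∈ (S : Subgroup G) := by
  have : Fact (Nat.Prime 2) := ⟨Nat.prime_two⟩
  obtain ⟨Q, hQ⟩ := (hR.comap_of_injective K.subtype Subtype.val_injective).exists_le_sylow
  obtain ⟨c, hc⟩ := MulAction.exists_smul_eq K Q (S.subtype hSK)
  refine ⟨c, c.2, fun r hr => ?_⟩
  have h : c * ⟨r, hRK hr⟩ * c⁻¹ ∈ ((S.subtype hSK : Sylow 2 K) : Subgroup K) := by
    rw [← hc, Sylow.coe_subgroup_smul]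
    exact ⟨⟨r, hRK hr⟩, hQ hr, rfl⟩
  exact h

theorem Hyp.nonempty_loc [Finite G] {t : G} (h : Hyp t) : Nonempty (Loc t) := by
  classical
  have : Fact (Nat.Prime 2) := ⟨Nat.prime_two⟩
  obtain ⟨e⟩ := h.iso
  obtain ⟨S, -, hS⟩ := h.syl
  set ι0 : M →* G := (WC t).subtype.comp e.symm.toMonoidHom with hι0
  have hinj : Function.Injective ι0 := fun a b hab => e.symm.injective (Subtype.ext hab)
  have hrange : ι0.range = WC t := by
    ext x
    exact ⟨fun ⟨m, hm⟩ => hm ▸ (e.symm m).2, fun hx => ⟨e ⟨x, hx⟩, by simp [hι0]⟩⟩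
  have htau : ι0 τ = t := by
    obtain ⟨m, hm⟩ : t ∈ ι0.range := hrange ▸ self_mem_WC t
    have hc : ∀ b : M, m * b = b * m := fun b => hinj (by
      rw [map_mul, map_mul, hm]
      exact (WC_comm (hrange ▸ ⟨b, rfl⟩)).symm)
    rcases H30.TwoTimesA5.central_eq m (hc _) (hc _) with rfl | rfl
    · rw [map_one] at hm
      exact absurd h.ord (by rw [← hm, orderOf_one]; norm_num)
    · exact hm
  have hE : IsPGroup 2 (V8.map ι0) := (IsPGroup.of_card (n := 3) (by rw [card_V8]; rfl)).map ι0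
  obtain ⟨c, hc, hcS⟩ := conj_into_sylow S
    (K := Subgroup.centralizer ({t} : Set G))
    (fun s hs => Subgroup.mem_centralizer_singleton_iff.mpr (hS s hs)) hE
    (fun x hx => Subgroup.mem_centralizer_singleton_iff.mpr
      (WC_comm (hrange ▸ Subgroup.map_le_range ι0 V8 hx)))
  have hct := Subgroup.mem_centralizer_singleton_iff.mp hc
  refine ⟨⟨S, (MulAut.conj c).toMonoidHom.comp ι0, (MulAut.conj c).injective.comp hinj, ?_, ?_,
    fun x => hcS _ (Subgroup.mem_map_of_mem ι0 (mem_V8.mpr (emb_mem x))), hS⟩⟩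
  · ext x
    constructor
    · rintro ⟨m, rfl⟩
      exact conj_mem_WC' hct (hrange ▸ ⟨m, rfl⟩)
    · intro hx
      have hct' : c⁻¹ * t = t * c⁻¹ := by
        rw [inv_mul_eq_iff_eq_mul, ← mul_assoc, hct, mul_inv_cancel_right]
      obtain ⟨m, hm⟩ : c⁻¹ * x * c⁻¹⁻¹ ∈ ι0.range := hrange ▸ conj_mem_WC' hct' hx
      exact ⟨m, by simp [hm]; group⟩
  · simp only [MonoidHom.comp_apply, htau, MulEquiv.coe_toMonoidHom, MulAut.conj_apply, hct,
      mul_inv_cancel_right]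

namespace Loc

variable [Finite G] {t : G} (L : Loc t)

/-- The Sylow subgroup of the weak closure. -/
def E : Subgroup G := V8.map L.ι

theorem mem_E {g : G} : g ∈ L.E ↔ ∃ x, L.ι (emb x) = g := by
  rw [E, Subgroup.mem_map]
  constructor
  · rintro ⟨m, hm, rfl⟩
    obtain ⟨x, rfl⟩ := exists_emb m (mem_V8.mp hm).1 (mem_V8.mp hm).2
    exact ⟨x, rfl⟩
  · rintro ⟨x, rfl⟩; exact ⟨emb x, mem_V8.mpr (H68.J1.emb_mem x), rfl⟩

theorem emb_mem_E (x : Fin 8) : L.ι (emb x) ∈ L.E := L.mem_E.mpr ⟨x, rfl⟩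

theorem range_mem (m : M) : L.ι m ∈ WC t := L.range_eq ▸ ⟨m, rfl⟩

theorem emb_one : L.ι (emb 1) = t := by rw [emb_values.2.1, L.map_tau]

include L in
theorem t_ne : t ≠ 1 := fun h =>
  H30.TwoTimesA5.tau_ne.1 (L.inj (L.map_tau.trans (h.trans (map_one L.ι).symm)))

include L in
theorem tt : t * t = 1 := by rw [← L.map_tau, ← map_mul, H30.TwoTimesA5.tau_ne.2, map_one]

theorem t_mem_E : t ∈ L.E := L.mem_E.mpr ⟨1, L.emb_one⟩

theorem isPGroup_E : IsPGroup 2 L.E := by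
  have : Fact (Nat.Prime 2) := ⟨Nat.prime_two⟩
  exact (IsPGroup.of_card (n := 3) (by rw [card_V8]; rfl)).map L.ι

theorem E_le_S : L.E ≤ (L.S : Subgroup G) := fun _ hg => by
  obtain ⟨x, rfl⟩ := L.mem_E.mp hg
  exact L.emb_mem x

theorem E_comm {a b : G} (ha : a ∈ L.E) (hb : b ∈ L.E) : a * b = b * a := by
  obtain ⟨x, rfl⟩ := L.mem_E.mp ha
  obtain ⟨y, rfl⟩ := L.mem_E.mp hb
  rw [← map_mul, ← map_mul, ← emb_xadd, ← emb_xadd]
  congr 2
  exact (by decide +kernel : ∀ x y : Fin 8, xadd x y = xadd y x) x y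

theorem mem_E_of_mem {g : G} (hS : g ∈ (L.S : Subgroup G)) (hW : g ∈ WC t) : g ∈ L.E := by
  have : Fact (Nat.Prime 2) := ⟨Nat.prime_two⟩
  have hle : L.E ≤ (L.S : Subgroup G) ⊓ WC t :=
    le_inf L.E_le_S (L.range_eq ▸ Subgroup.map_le_range _ _)
  have hE : Nat.card L.E = 8 := by rw [E, Subgroup.card_map_of_injective L.inj, card_V8]
  obtain ⟨k, hk⟩ := IsPGroup.iff_card.mp (L.S.isPGroup'.to_le
    (inf_le_left : (L.S : Subgroup G) ⊓ WC t ≤ (L.S : Subgroup G)))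
  have hd : Nat.card ↥((L.S : Subgroup G) ⊓ WC t) ∣ 120 := by
    refine (Subgroup.card_dvd_of_le inf_le_right).trans (dvd_of_eq ?_)
    rw [← L.range_eq, Nat.card_congr (MonoidHom.ofInjective L.inj).toEquiv.symm,
      Nat.card_eq_fintype_card, H30.TwoTimesA5.card_M]
  have heq : L.E = (L.S : Subgroup G) ⊓ WC t := Subgroup.eq_of_le_of_card_ge hle (by
    rw [hk, hE]
    rw [hk] at hd
    have hk3 : k ≤ 3 := by
      by_contra hc
      exact absurd ((pow_dvd_pow 2 (by omega : 4 ≤ k)).trans hd) (by norm_num)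
    exact Nat.pow_le_pow_right (by norm_num) hk3)
  rw [heq]
  exact ⟨hS, hW⟩

theorem mem_E_of_Dset {a : G} (ha : a ∈ Dset t) (hS : a ∈ (L.S : Subgroup G)) : a ∈ L.E :=
  L.mem_E_of_mem hS (mem_WC ha (L.htc a hS))

/-- The element of order three normalising the four group. -/
def y : G := L.ι mS

theorem y_conj (x : Fin 8) : L.y * L.ι (emb x) * L.y⁻¹ = L.ι (emb (sp x)) := by
  rw [← sp_spec, map_mul, map_mul, map_inv, y]

theorem y_comm : L.y * t = t * L.y := WC_comm (L.range_mem mS)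

theorem conj_iota_emb (m : M) (x : Fin 8) :
    L.ι (m * emb x * m⁻¹) = L.ι m * L.ι (emb x) * (L.ι m)⁻¹ := by
  rw [map_mul, map_mul, map_inv]

theorem exists_second : ∃ x : Fin 8, x ≠ 0 ∧ x ≠ 1 ∧ L.ι (emb x) ∈ Dset t := by
  by_contra hno
  have hle : WC t ≤ (Subgroup.zpowers τ).map L.ι := by
    refine (Subgroup.closure_le _).mpr ?_
    rintro x ⟨g, hx, hc⟩
    have hxD : x ∈ Dset t := ⟨g, hx⟩
    obtain ⟨m, rfl⟩ : x ∈ L.ι.range := L.range_eq ▸ mem_WC hxD hc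
    have h2 : m * m = 1 := L.inj (by rw [map_mul, hx, map_one, conj_mul, L.tt]; group)
    by_cases h1 : m = 1
    · subst h1
      exact absurd hx (by rw [map_one]; exact fun e => L.t_ne (conj_eq_one_iff.mp e.symm))
    obtain ⟨k, z, hz0, rfl⟩ := invol_conj_emb m h2 h1
    by_cases hz1 : z = 1
    · subst hz1
      rw [emb_values.2.1, ← H30.TwoTimesA5.tau_central k, mul_inv_cancel_right]
      exact ⟨τ, Subgroup.mem_zpowers τ, rfl⟩
    refine absurd ⟨z, hz0, hz1, ?_⟩ hno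
    have hz := conj_mem_Dset (L.ι k)⁻¹ hxD
    rw [L.conj_iota_emb] at hz
    have e : (L.ι k)⁻¹ * (L.ι k * L.ι (emb z) * (L.ι k)⁻¹) * (L.ι k)⁻¹⁻¹ = L.ι (emb z) := by group
    rwa [e] at hz
  obtain ⟨m, hm, he⟩ := hle (L.range_mem mX)
  have hm' : mX ∈ Subgroup.zpowers τ := L.inj he ▸ hm
  obtain ⟨i, hi⟩ := hm'
  have hc : ∀ b : M, Commute τ b := H30.TwoTimesA5.tau_central
  exact absurd ((hc mY).zpow_left i).eq (by simp only at hi; rw [hi]; decide +kernel)

/-- The Sylow subgroup of the weak closure is weakly closed. -/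
theorem weakly_closed {g : G} (h : ∀ x, g * L.ι (emb x) * g⁻¹ ∈ (L.S : Subgroup G)) :
    g ∈ Subgroup.normalizer (L.E : Set G) := by
  obtain ⟨x0, hx0, hx1, hxD⟩ := L.exists_second
  have hy : L.ι (emb (sp x0)) ∈ Dset t := L.y_conj x0 ▸ conj_mem_Dset L.y hxD
  have hW : ∀ x, L.ι (emb x) ∈ Dset t → g * L.ι (emb x) * g⁻¹ ∈ WC t := fun x hx =>
    mem_WC (conj_mem_Dset g hx) (L.htc _ (h x))
  refine mem_normalizer_of_conj fun q hq => ?_
  obtain ⟨z, rfl⟩ := L.mem_E.mp hq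
  refine L.mem_E_of_mem (h z) ?_
  obtain ⟨a, b, c, e⟩ := span_orbit x0 z hx0 hx1
  set K := (WC t).comap ((MulAut.conj g).toMonoidHom.comp L.ι)
  have h1 : τ ∈ K := by
    have := hW 1 (by rw [L.emb_one]; exact self_mem_Dset t)
    rwa [emb_values.2.1] at this
  have hx0K : emb x0 ∈ K := hW x0 hxD
  have hx1K : emb (sp x0) ∈ K := hW (sp x0) hy
  have h2 : emb z ∈ K := e ▸ mul_mem (mul_mem (pow_mem h1 _) (pow_mem hx0K _)) (pow_mem hx1K _)
  exact h2

theorem mem_normalizer {g : G} (hg : g ∈ Subgroup.normalizer (L.E : Set G)) (x : Fin 8) :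
    ∃ y, g * L.ι (emb x) * g⁻¹ = L.ι (emb y) := by
  obtain ⟨y, hy⟩ := L.mem_E.mp ((Subgroup.mem_normalizer_iff.mp hg _).mp (L.emb_mem_E x))
  exact ⟨y, hy.symm⟩

theorem exists_lmap {g : G} (hg : g ∈ Subgroup.normalizer (L.E : Set G)) :
    ∃ a b c : Fin 8, (∀ x, g * L.ι (emb x) * g⁻¹ = L.ι (emb (lmap a b c x))) ∧
      ∀ x, lmap a b c x = 0 → x = 0 := by
  obtain ⟨a, ha⟩ := L.mem_normalizer hg 1
  obtain ⟨b, hb⟩ := L.mem_normalizer hg 2
  obtain ⟨c, hc⟩ := L.mem_normalizer hg 4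
  rw [emb_values.2.1] at ha
  rw [emb_values.2.2.1] at hb
  rw [emb_values.2.2.2.2.1] at hc
  refine ⟨a, b, c, conj_emb L.ι g ha hb hc, fun x hx => ?_⟩
  have h := conj_emb L.ι g ha hb hc x
  rw [hx, emb_values.1, map_one, conj_eq_one_iff] at h
  exact emb_inj (emb_values.1 ▸ L.inj (h.trans (map_one L.ι).symm))

theorem y_mem_normalizer : L.y ∈ Subgroup.normalizer (L.E : Set G) := by
  refine mem_normalizer_of_conj fun q hq => ?_
  obtain ⟨x, rfl⟩ := L.mem_E.mp hq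
  exact L.y_conj x ▸ L.emb_mem_E _

theorem S_le_normalizer : (L.S : Subgroup G) ≤ Subgroup.normalizer (L.E : Set G) := fun s hs =>
  L.weakly_closed fun x => mul_mem (mul_mem hs (L.emb_mem x)) (inv_mem hs)

/-- Conjugates of `t` in `E` are conjugate in the normalizer. -/
theorem exists_normalizer_conj {x : Fin 8} (hx : L.ι (emb x) ∈ Dset t) :
    ∃ n ∈ Subgroup.normalizer (L.E : Set G), n * t * n⁻¹ = L.ι (emb x) := by
  obtain ⟨g, hg⟩ := hx
  obtain ⟨c, hc, hcS⟩ := conj_into_sylow L.S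
    (K := Subgroup.centralizer ({t} : Set G))
    (fun s hs => Subgroup.mem_centralizer_singleton_iff.mpr (L.htc s hs))
    (L.isPGroup_E.map (MulAut.conj g⁻¹).toMonoidHom) (by
      rintro _ ⟨e, he, rfl⟩
      obtain ⟨z, rfl⟩ := L.mem_E.mp he
      refine Subgroup.mem_centralizer_singleton_iff.mpr ?_
      have h := L.E_comm (L.emb_mem_E z) (L.emb_mem_E x)
      rw [hg] at h
      simp only [MulEquiv.coe_toMonoidHom, MulAut.conj_apply, inv_inv]
      calc g⁻¹ * L.ι (emb z) * g * t = g⁻¹ * (L.ι (emb z) * (g * t * g⁻¹)) * g := by group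
        _ = g⁻¹ * (g * t * g⁻¹ * L.ι (emb z)) * g := by rw [h]
        _ = t * (g⁻¹ * L.ι (emb z) * g) := by group)
  have hn : c * g⁻¹ ∈ Subgroup.normalizer (L.E : Set G) := L.weakly_closed fun z => by
    have h := hcS _ (Subgroup.mem_map_of_mem _ (L.emb_mem_E z))
    simp only [MulEquiv.coe_toMonoidHom, MulAut.conj_apply, inv_inv] at h
    have e : c * g⁻¹ * L.ι (emb z) * (c * g⁻¹)⁻¹ = c * (g⁻¹ * L.ι (emb z) * g) * c⁻¹ := by group
    rw [e]; exact h
  refine ⟨(c * g⁻¹)⁻¹, inv_mem hn, ?_⟩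
  have hct : c⁻¹ * t * c = t := by
    rw [mul_assoc, ← Subgroup.mem_centralizer_singleton_iff.mp hc, inv_mul_cancel_left]
  rw [hg]
  calc (c * g⁻¹)⁻¹ * t * (c * g⁻¹)⁻¹⁻¹ = g * (c⁻¹ * t * c) * g⁻¹ := by group
    _ = g * t * g⁻¹ := by rw [hct]

/-- All involutions in `E` are conjugates of `t`. -/
theorem emb_mem_Dset {x : Fin 8} (hx : x ≠ 0) : L.ι (emb x) ∈ Dset t := by
  classical
  have : Fact (Nat.Prime 2) := ⟨Nat.prime_two⟩
  set T : Finset (Fin 8) := Finset.univ.filter fun z => L.ι (emb z) ∈ Dset t with hT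
  have hmem : ∀ z, z ∈ T ↔ L.ι (emb z) ∈ Dset t := fun z => by simp [hT]
  set N := Subgroup.normalizer (L.E : Set G) with hN
  have htN : t ∈ N := Subgroup.le_normalizer L.t_mem_E
  have horb : Nat.card (orbitBy N t) = T.card := by
    rw [← Fintype.card_coe, ← Nat.card_eq_fintype_card]
    symm
    refine Nat.card_congr (Equiv.ofBijective (fun z => ⟨L.ι (emb z.1), ?_⟩) ⟨?_, ?_⟩)
    · exact L.exists_normalizer_conj ((hmem _).mp z.2)
    · intro a b h
      have h' : L.ι (emb a.1) = L.ι (emb b.1) := congrArg Subtype.val h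
      exact Subtype.ext (emb_inj (L.inj h'))
    · rintro ⟨q, n, hn, rfl⟩
      obtain ⟨z, hz⟩ := L.mem_E.mp ((Subgroup.mem_normalizer_iff.mp hn t).mp
        L.t_mem_E)
      exact ⟨⟨z, (hmem z).mpr ⟨n, hz⟩⟩, Subtype.ext hz⟩
  have hodd : ¬ 2 ∣ T.card := by
    intro h2
    have hle : (L.S : Subgroup G) ≤ N ⊓ Subgroup.centralizer {t} := le_inf L.S_le_normalizer
      fun s hs => Subgroup.mem_centralizer_singleton_iff.mpr (L.htc s hs)
    have h := card_orbitBy N htN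
    rw [horb] at h
    have hd : 2 * Nat.card (L.S : Subgroup G) ∣ Nat.card G :=
      (Nat.mul_dvd_mul h2 (Subgroup.card_dvd_of_le hle)).trans
        (h.dvd.trans (Subgroup.card_subgroup_dvd_card N))
    rw [← (L.S : Subgroup G).card_mul_index, mul_comm 2] at hd
    exact L.S.not_dvd_index ((Nat.mul_dvd_mul_iff_left Nat.card_pos).mp hd)
  refine (hmem x).mp (odd_invariant_set T ?_ ?_ ?_ ?_ hodd x hx)
  · rw [hmem, emb_values.1, map_one]
    rintro ⟨g, hg⟩
    exact L.t_ne (conj_eq_one_iff.mp hg.symm)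
  · rw [hmem, L.emb_one]; exact self_mem_Dset t
  · intro z hz
    rw [hmem] at hz ⊢
    exact L.y_conj z ▸ conj_mem_Dset L.y hz
  · obtain ⟨x0, -, hx1, hxD⟩ := L.exists_second
    exact ⟨x0, (hmem x0).mpr hxD, hx1⟩

/-- All involutions of the weak closure are conjugates of `t`. -/
theorem invol_mem_Dset {m : M} (h2 : m * m = 1) (h1 : m ≠ 1) : L.ι m ∈ Dset t := by
  obtain ⟨k, x, hx, rfl⟩ := invol_conj_emb m h2 h1
  exact L.conj_iota_emb k x ▸ conj_mem_Dset _ (L.emb_mem_Dset hx)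

theorem exists_normalizer {x : Fin 8} (hx : x ≠ 0) :
    ∃ n ∈ Subgroup.normalizer (L.E : Set G), n * t * n⁻¹ = L.ι (emb x) :=
  L.exists_normalizer_conj (L.emb_mem_Dset hx)

end Loc

end Cfsg.Agent.H68.WeakJ1
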