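import Cfsg.Agent.H68.WeakJ1.Loc

/-!
The centralizer of an involution whose weak closure is `C2 × A5`.
-/

set_option autoImplicit false
set_option maxRecDepth 4000
set_option maxHeartbeats 1000000
set_option synthInstance.maxSize 4096

namespace Cfsg.Agent.H68.WeakJ1

open Cfsg.Agent.H30.TwoTimesA5 (M A τ)
open Cfsg.Agent.H68.J1

variable {G : Type*} [Group G] [Finite G] {t : G}

/-- The elements centralising all weak closures of conjugates of `d` commuting with `d`. -/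
def Pd {G : Type*} [Group G] (d : G) : Subgroup G :=
  Subgroup.centralizer {w : G | ∃ a, a ∈ Dset d ∧ a * d = d * a ∧ w ∈ WC a}

namespace Loc

variable (L : Loc t)

theorem comm_of_range {c : G} (h0 : c * t = t * c) (h1 : c * L.ι mX = L.ι mX * c)
    (h2 : c * L.ι mY = L.ι mY * c) (w : G) (hw : w ∈ WC t) : c * w = w * c := by
  rw [← L.range_eq] at hw
  obtain ⟨m, rfl⟩ := hw
  have htop : (Subgroup.centralizer ({c} : Set G)).comap L.ι = ⊤ := eq_top_of_gens _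
    (Subgroup.mem_centralizer_singleton_iff.mpr (by rw [L.map_tau]; exact h0.symm))
    (Subgroup.mem_centralizer_singleton_iff.mpr h1.symm)
    (Subgroup.mem_centralizer_singleton_iff.mpr h2.symm)
  have hm : m ∈ (Subgroup.centralizer ({c} : Set G)).comap L.ι := htop ▸ Subgroup.mem_top m
  exact (Subgroup.mem_centralizer_singleton_iff.mp hm).symm

theorem conj_isV {g : G} (hg : g * t = t * g) {x : Fin 8} (hx : isV x = true) {x' : Fin 8}
    (h : g * L.ι (emb x) * g⁻¹ = L.ι (emb x')) : isV x' = true := by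
  obtain ⟨p, q, hp, hq, hpq⟩ := v_three x hx
  have hfst : ∀ r : A, r ^ 3 = 1 → ∃ m : M, g * L.ι (1, r) * g⁻¹ = L.ι m ∧ m.1 = 1 := by
    intro r hr
    obtain ⟨m, hm⟩ : g * L.ι (1, r) * g⁻¹ ∈ L.ι.range :=
      L.range_eq ▸ conj_mem_WC' hg (L.range_mem _)
    have h3 : m ^ 3 = 1 := L.inj (by
      rw [map_pow, hm, conj_pow, ← map_pow, Prod.pow_mk, one_pow, hr, map_one]
      exact (congrArg (fun z => g * z * g⁻¹) (map_one L.ι)).trans (by group))
    exact ⟨m, hm.symm, H30.TwoTimesA5.fst_cube _ (congrArg Prod.fst h3)⟩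
  obtain ⟨a, ha, ha1⟩ := hfst p hp
  obtain ⟨b, hb, hb1⟩ := hfst q hq
  have he : emb x' = a * b := L.inj (by
    rw [← h, ← hpq, map_mul, ← ha, ← hb, conj_mul, ← map_mul, Prod.mk_mul_mk, one_mul])
  have hx0 : x' ≠ 0 := fun e => by
    rw [e, emb_values.1, map_one, conj_eq_one_iff, map_eq_one_iff _ L.inj, ← emb_values.1] at h
    rw [emb_inj h] at hx
    exact absurd hx (by decide)
  exact fst_emb x' (by rw [he, Prod.fst_mul, ha1, hb1, one_mul]) hx0

/-- The stabiliser of `t` in the normalizer acts as the powers of `y`. -/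
theorem stab_sp {g : G} (hg : g ∈ Subgroup.normalizer (L.E : Set G)) (hgt : g * t = t * g) :
    ∃ i : Fin 3, ∀ x, g * L.ι (emb x) * g⁻¹ = L.ι (emb (sp^[i.1] x)) := by
  obtain ⟨a, b, c, hact, -⟩ := L.exists_lmap hg
  have ha : a = 1 := by
    have h := hact 1
    rw [L.emb_one, hgt, mul_inv_cancel_right] at h
    rw [← (by decide +kernel : ∀ a b c : Fin 8, lmap a b c 1 = a) a b c]
    exact (emb_inj (L.inj (L.emb_one.trans h))).symm
  subst ha
  have hV : ∀ x, isV x = true → isV (lmap 1 b c x) = true := fun x hx =>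
    L.conj_isV hgt hx (hact x)
  have e24 : ∀ a b c : Fin 8, lmap a b c 2 = b ∧ lmap a b c 4 = c := by decide +kernel
  have hb : isV b = true := (e24 1 b c).1 ▸ hV 2 (by decide)
  have hc : isV c = true := (e24 1 b c).2 ▸ hV 4 (by decide)
  have hbc : b ≠ c := fun e => by
    have h := (hact 2).trans ((congrArg (fun z => L.ι (emb z)) ((e24 1 b c).1.trans (e.trans (e24 1 b c).2.symm)) :
      L.ι (emb (lmap 1 b c 2)) = L.ι (emb (lmap 1 b c 4))).trans (hact 4).symm)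
    exact absurd (emb_inj (L.inj (mul_left_cancel (mul_right_cancel h)))) (by decide)
  rcases lmap_stab b c hb hc hbc with ⟨i, hi⟩ | ⟨-, z, hz, hLz, hu, -⟩
  · exact ⟨i, fun x => hi x ▸ hact x⟩
  exfalso
  obtain ⟨n, hn, hnt⟩ := L.exists_normalizer (x := z) (fun e => by
    rw [e] at hz; exact absurd hz (by decide))
  obtain ⟨a', b', c', hact', hinj'⟩ := L.exists_lmap hn
  have ha' : a' = z := by
    have h := hact' 1
    rw [L.emb_one, hnt] at h
    rw [← (by decide +kernel : ∀ a b c : Fin 8, lmap a b c 1 = a) a' b' c']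
    exact (emb_inj (L.inj h)).symm
  subst ha'
  refine transvection_no_plane b c hb hc hbc a' hz hLz hu b' c' hinj' fun x hx => ?_
  have hmN : n⁻¹ * g * n ∈ Subgroup.normalizer (L.E : Set G) :=
    mul_mem (mul_mem (inv_mem hn) hg) hn
  have hmt : n⁻¹ * g * n * t = t * (n⁻¹ * g * n) := by
    have h := hact a'
    rw [hLz, ← hnt, mul_inv_eq_iff_eq_mul] at h
    calc n⁻¹ * g * n * t = n⁻¹ * (g * (n * t * n⁻¹)) * n := by group
      _ = n⁻¹ * (n * t * n⁻¹ * g) * n := by rw [h]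
      _ = t * (n⁻¹ * g * n) := by group
  obtain ⟨x', hx'⟩ := L.mem_normalizer hmN x
  have hx'V : inV x' = true := by
    rcases (Bool.or_eq_true _ _).mp hx with h | h
    · have hx0 : x = 0 := by simpa using h
      rw [hx0, emb_values.1, map_one, mul_one, mul_inv_cancel, ← map_one L.ι, ← emb_values.1] at hx'
      rw [← emb_inj (L.inj hx')]; decide
    · exact (Bool.or_eq_true _ _).mpr (Or.inr (L.conj_isV hmt h hx'))
  refine ⟨x', hx'V, emb_inj (L.inj ?_)⟩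
  rw [← hact, ← hact', ← hact', ← hx']
  group

/-- The Sylow subgroup centralises `E`. -/
theorem S_comm {s : G} (hs : s ∈ (L.S : Subgroup G)) (x : Fin 8) :
    s * L.ι (emb x) = L.ι (emb x) * s := by
  obtain ⟨i, hi⟩ := L.stab_sp (L.S_le_normalizer hs) (L.htc s hs)
  have h3 : ∀ x, s ^ 3 * L.ι (emb x) * (s ^ 3)⁻¹ = L.ι (emb x) := fun x => by
    rw [conj_iter hi 3 x, ← Function.iterate_mul, mul_comm, Function.iterate_mul,
      show sp^[3] = id from funext sp_iter_three, Function.iterate_id]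
    rfl
  obtain ⟨k, hk⟩ := L.S.isPGroup' ⟨s, hs⟩
  have hk' : s ^ 2 ^ k = 1 := congrArg Subtype.val hk
  have hcop : Nat.Coprime 3 (orderOf s) :=
    Nat.Coprime.coprime_dvd_right (orderOf_dvd_of_pow_eq_one hk')
      ((show Nat.Coprime 3 2 by norm_num).pow_right k)
  obtain ⟨m, hm⟩ := exists_pow_eq_self_of_coprime hcop
  rw [← hm]
  exact (Commute.pow_left (mul_inv_eq_iff_eq_mul.mp (h3 x)) m).eq

/-- A 2-subgroup containing `E` centralises `t`. -/
theorem two_group_comm {R : Subgroup G} (hR : IsPGroup 2 R) (hER : L.E ≤ R) {r : G} (hr : r ∈ R) :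
    r * t = t * r := by
  obtain ⟨g, -, hg⟩ := conj_into_sylow L.S (K := ⊤) le_top hR le_top
  have hn : g ∈ Subgroup.normalizer (L.E : Set G) :=
    L.weakly_closed fun x => hg _ (hER (L.emb_mem_E x))
  obtain ⟨z, hz⟩ := L.mem_E.mp ((Subgroup.mem_normalizer_iff.mp hn t).mp L.t_mem_E)
  have h := L.S_comm (hg r hr) z
  rw [hz] at h
  calc r * t = g⁻¹ * (g * r * g⁻¹ * (g * t * g⁻¹)) * g := by group
    _ = g⁻¹ * (g * t * g⁻¹ * (g * r * g⁻¹)) * g := by rw [h]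
    _ = t * r := by group

/-- The centralizer of `E`. -/
def CE : Subgroup G := Subgroup.centralizer (L.E : Set G)

theorem mem_CE {c : G} : c ∈ L.CE ↔ ∀ x, c * L.ι (emb x) = L.ι (emb x) * c := by
  rw [CE, Subgroup.mem_centralizer_iff]
  refine ⟨fun h x => (h _ (L.emb_mem_E x)).symm, fun h e he => ?_⟩
  obtain ⟨x, rfl⟩ := L.mem_E.mp he
  exact (h x).symm

theorem CE_comm_t {c : G} (hc : c ∈ L.CE) : c * t = t * c := L.emb_one ▸ L.mem_CE.mp hc 1

theorem E_le_CE {e : G} (he : e ∈ L.E) : e ∈ L.CE := L.mem_CE.mpr fun x =>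
  L.E_comm he (L.emb_mem_E x)

theorem normalizer_conj_CE {g c : G} (hg : g ∈ Subgroup.normalizer (L.E : Set G))
    (hc : c ∈ L.CE) : g * c * g⁻¹ ∈ L.CE := by
  refine L.mem_CE.mpr fun x => ?_
  obtain ⟨z, hz⟩ := L.mem_normalizer (inv_mem hg) x
  rw [inv_inv] at hz
  have h := L.mem_CE.mp hc z
  rw [← hz] at h
  calc g * c * g⁻¹ * L.ι (emb x) = g * (c * (g⁻¹ * L.ι (emb x) * g)) * g⁻¹ := by group
    _ = g * (g⁻¹ * L.ι (emb x) * g * c) * g⁻¹ := by rw [h]
    _ = L.ι (emb x) * (g * c * g⁻¹) := by group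

theorem CE_decomp {c : G} (hc : c ∈ L.CE) : ∃ v : Fin 8, inV v = true ∧
    ∀ w ∈ WC t, ((L.ι (emb v))⁻¹ * c) * w = w * ((L.ι (emb v))⁻¹ * c) := by
  obtain ⟨z, hz⟩ : c * L.ι mY * c⁻¹ ∈ L.ι.range :=
    L.range_eq ▸ conj_mem_WC' (L.CE_comm_t hc) (L.range_mem mY)
  have hcX : c * L.ι mX * c⁻¹ = L.ι mX := mul_inv_eq_iff_eq_mul.mpr
    (emb_values.2.2.1 ▸ L.mem_CE.mp hc 2)
  have hcB : c * L.ι mB * c⁻¹ = L.ι mB := mul_inv_eq_iff_eq_mul.mpr
    (emb_values.2.2.2.2.1 ▸ L.mem_CE.mp hc 4)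
  set φ : M →* G := (MulAut.conj c).toMonoidHom.comp L.ι with hφ
  have hY : φ mY = L.ι z := hz.symm
  have hX : φ mX = L.ι mX := hcX
  have hone : φ 1 = 1 := map_one φ
  have h1 : z ^ 3 = 1 := L.inj (by
    rw [map_pow, ← hY, ← map_pow, mY_facts.1, hone, map_one])
  have h2 : (mX * z) ^ 5 = 1 := L.inj (by
    rw [map_pow, map_mul, ← hY, ← hX, ← map_mul, ← map_pow, mY_facts.2.1, hone, map_one])
  have h3 : z * mX * z⁻¹ * mX * z * mX * z⁻¹ * mX * z = mB := L.inj (by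
    simp only [map_mul, map_inv, ← hY, ← hX]
    simp only [← map_inv, ← map_mul]
    rw [mY_facts.2.2]
    exact hcB)
  obtain ⟨v, hv, hvz⟩ := aut_inner z h1 h2 h3
  refine ⟨v, hv, L.comm_of_range ?_ ?_ ?_⟩
  · exact ((show Commute (L.ι (emb v)) t from L.E_comm (L.emb_mem_E v) L.t_mem_E).inv_left.mul_left
      (L.CE_comm_t hc)).eq
  · have hvX : Commute (L.ι (emb v)) (L.ι mX) :=
      emb_values.2.2.1 ▸ L.E_comm (L.emb_mem_E v) (L.emb_mem_E 2)
    exact (hvX.inv_left.mul_left (emb_values.2.2.1 ▸ L.mem_CE.mp hc 2)).eq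
  · have e : c * L.ι mY * c⁻¹ = L.ι (emb v) * L.ι mY * (L.ι (emb v))⁻¹ := by
      rw [← hz, ← hvz, map_mul, map_mul, map_inv]
    calc (L.ι (emb v))⁻¹ * c * L.ι mY = (L.ι (emb v))⁻¹ * (c * L.ι mY * c⁻¹) * c := by group
      _ = (L.ι (emb v))⁻¹ * (L.ι (emb v) * L.ι mY * (L.ι (emb v))⁻¹) * c := by rw [e]
      _ = L.ι mY * ((L.ι (emb v))⁻¹ * c) := by group

theorem y_pow_conj (i : ℕ) (x : Fin 8) :
    L.y ^ i * L.ι (emb x) * (L.y ^ i)⁻¹ = L.ι (emb (sp^[i] x)) := conj_iter L.y_conj i x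

/-- The centralizer of `t` is the product of the centralizer of `E` and the weak closure. -/
theorem cent_decomp {c : G} (hc : c * t = t * c) :
    ∃ x ∈ L.CE, ∃ w ∈ WC t, (∀ v ∈ WC t, x * v = v * x) ∧ c = x * w := by
  have : Fact (Nat.Prime 2) := ⟨Nat.prime_two⟩
  set R : Subgroup M := (L.E.map (MulAut.conj c).toMonoidHom).comap L.ι with hRdef
  have hR : IsPGroup 2 R :=
    (L.isPGroup_E.map (MulAut.conj c).toMonoidHom).comap_of_injective L.ι L.inj
  obtain ⟨Q, hQ⟩ := hR.exists_le_sylow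
  have h8 : Nat.card V8 = 2 ^ (Nat.card M).factorization 2 := by
    rw [card_V8, Nat.card_eq_fintype_card (α := M), H30.TwoTimesA5.card_M,
      show (120 : ℕ) = 2 ^ 3 * 15 by norm_num,
      Nat.factorization_mul_of_coprime (by norm_num : Nat.Coprime (2 ^ 3) 15), Finsupp.add_apply,
      Nat.Prime.factorization_pow Nat.prime_two, Finsupp.single_eq_same,
      Nat.factorization_eq_zero_of_not_dvd (by norm_num : ¬ 2 ∣ 15)]
    norm_num
  obtain ⟨k, hk⟩ := MulAction.exists_smul_eq M Q (Sylow.ofCard V8 h8)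
  have hgN : L.ι k * c ∈ Subgroup.normalizer (L.E : Set G) := by
    refine mem_normalizer_of_conj fun e he => ?_
    obtain ⟨m, hm⟩ : c * e * c⁻¹ ∈ L.ι.range :=
      L.range_eq ▸ conj_mem_WC' hc (L.range_eq ▸ Subgroup.map_le_range _ _ he)
    have hmR : m ∈ R := by
      rw [hRdef, Subgroup.mem_comap, hm]
      exact ⟨e, he, rfl⟩
    have h : k * m * k⁻¹ ∈ V8 := by
      have h' : k * m * k⁻¹ ∈ ((Sylow.ofCard V8 h8 : Sylow 2 M) : Subgroup M) := by
        rw [← hk, Sylow.coe_subgroup_smul]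
        exact ⟨m, hQ hmR, rfl⟩
      exact h'
    refine ⟨_, h, ?_⟩
    rw [map_mul, map_mul, map_inv, hm]
    group
  have hkt : L.ι k * t = t * L.ι k := WC_comm (L.range_mem k)
  have hgt : L.ι k * c * t = t * (L.ι k * c) :=
    ((show Commute (L.ι k) t from hkt).mul_left hc).eq
  obtain ⟨i, hi⟩ := L.stab_sp hgN hgt
  set c1 := (L.y ^ i.1)⁻¹ * (L.ι k * c) with hc1
  have hc1E : c1 ∈ L.CE := L.mem_CE.mpr fun x => by
    have h := (hi x).trans (L.y_pow_conj i.1 x).symm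
    refine mul_inv_eq_iff_eq_mul.mp ?_
    calc c1 * L.ι (emb x) * c1⁻¹
        = (L.y ^ i.1)⁻¹ * (L.ι k * c * L.ι (emb x) * (L.ι k * c)⁻¹) * L.y ^ i.1 := by
          rw [hc1]; group
      _ = L.ι (emb x) := by rw [h]; group
  obtain ⟨v, hv, hX⟩ := L.CE_decomp hc1E
  set xx := (L.ι (emb v))⁻¹ * c1 with hxx
  have hw : (L.ι k)⁻¹ * L.y ^ i.1 * L.ι (emb v) ∈ WC t :=
    mul_mem (mul_mem (inv_mem (L.range_mem k)) (pow_mem (L.range_mem mS) _)) (L.range_mem _)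
  refine ⟨xx, mul_mem (inv_mem (L.E_le_CE (L.emb_mem_E v))) hc1E, _, hw, hX, ?_⟩
  rw [hX _ hw, hxx, hc1]
  group

/-- Elements of the normalizer acting trivially modulo `E` on the centralizer of `E`. -/
def Triv : Subgroup G where
  carrier := {g | g ∈ Subgroup.normalizer (L.E : Set G) ∧ ∀ c ∈ L.CE, g * c * g⁻¹ * c⁻¹ ∈ L.E}
  one_mem' := ⟨one_mem _, fun c _ => by simp⟩
  mul_mem' := by
    rintro a b ⟨ha, ha'⟩ ⟨hb, hb'⟩
    refine ⟨mul_mem ha hb, fun c hc => ?_⟩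
    have h := mul_mem (ha' _ (L.normalizer_conj_CE hb hc)) (hb' c hc)
    have e : a * (b * c * b⁻¹) * a⁻¹ * (b * c * b⁻¹)⁻¹ * (b * c * b⁻¹ * c⁻¹) =
        a * b * c * (a * b)⁻¹ * c⁻¹ := by group
    rwa [e] at h
  inv_mem' := by
    rintro a ⟨ha, ha'⟩
    refine ⟨inv_mem ha, fun c hc => ?_⟩
    have hc' : a⁻¹ * c * a ∈ L.CE := by simpa using L.normalizer_conj_CE (inv_mem ha) hc
    have h := inv_mem (ha' _ hc')
    have e : (a * (a⁻¹ * c * a) * a⁻¹ * (a⁻¹ * c * a)⁻¹)⁻¹ = a⁻¹ * c * a⁻¹⁻¹ * c⁻¹ := by group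
    rwa [e] at h

theorem y_mem_Triv : L.y ∈ L.Triv := by
  refine ⟨L.y_mem_normalizer, fun c hc => ?_⟩
  obtain ⟨v, -, hX⟩ := L.CE_decomp hc
  set xx := (L.ι (emb v))⁻¹ * c with hxx
  have hy := hX L.y (L.range_mem mS)
  have hc' : c = L.ι (emb v) * xx := by rw [hxx, mul_inv_cancel_left]
  have e : L.y * c * L.y⁻¹ * c⁻¹ =
      L.y * L.ι (emb v) * (xx * L.y⁻¹) * xx⁻¹ * (L.ι (emb v))⁻¹ := by rw [hc']; group
  have hyi : xx * L.y⁻¹ = L.y⁻¹ * xx := (show Commute xx L.y from hy).inv_right.eq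
  rw [e, hyi]
  have e2 : L.y * L.ι (emb v) * (L.y⁻¹ * xx) * xx⁻¹ * (L.ι (emb v))⁻¹ =
      L.y * L.ι (emb v) * L.y⁻¹ * (L.ι (emb v))⁻¹ := by group
  rw [e2, L.y_conj]
  exact mul_mem (L.emb_mem_E _) (inv_mem (L.emb_mem_E v))

/-- An element acting as an element of order seven, with the needed properties. -/
structure Seven where
  m : G
  n : G
  hm : m ∈ Subgroup.normalizer (L.E : Set G)
  hmt : m * t * m⁻¹ = L.ι mX
  hn : n = L.y * (m * L.y⁻¹ * m⁻¹)
  N : Fin 8 → Fin 8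
  hN : ∀ x, n * L.ι (emb x) * n⁻¹ = L.ι (emb (N x))
  trans : ∀ x, x ≠ 0 → ∃ i : Fin 7, N^[i.1] 1 = x
  fixed : ∀ x, N x = x → x = 0
  surj : ∀ z, ∃ e, xadd (N e) e = z
  j : Fin 7
  rel : ∀ x, sp (sp (N (sp x))) = N^[j.1] x

theorem exists_seven : Nonempty (Seven L) := by
  obtain ⟨m, hm, hmt⟩ := L.exists_normalizer (x := 2) (by decide)
  obtain ⟨a, b, c, hact, hinj⟩ := L.exists_lmap hm
  have ha : a = 2 := by
    have h := hact 1
    rw [L.emb_one, hmt] at h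
    rw [← (by decide +kernel : ∀ a b c : Fin 8, lmap a b c 1 = a) a b c]
    exact (emb_inj (L.inj h)).symm
  subst ha
  have hword : ∀ (g : G) (F : Fin 8 → Fin 8), g ∈ Subgroup.normalizer (L.E : Set G) →
      (∀ x, g * L.ι (emb x) * g⁻¹ = L.ι (emb (F x))) → F 1 = 1 →
      ∃ l : Fin 3, ∀ x, F x = sp^[l.1] x := by
    intro g F hg hF hF1
    have h := hF 1
    rw [hF1, L.emb_one, mul_inv_eq_iff_eq_mul] at h
    obtain ⟨l, hl⟩ := L.stab_sp hg h
    exact ⟨l, fun x => emb_inj (L.inj ((hF x).symm.trans (hl x)))⟩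
  have hyN : ∀ k : ℕ, L.y ^ k ∈ Subgroup.normalizer (L.E : Set G) := fun k =>
    pow_mem L.y_mem_normalizer k
  have hcomp : ∀ (g h : G) (F K : Fin 8 → Fin 8),
      (∀ x, g * L.ι (emb x) * g⁻¹ = L.ι (emb (F x))) →
      (∀ x, h * L.ι (emb x) * h⁻¹ = L.ι (emb (K x))) →
      ∀ x, g * h * L.ι (emb x) * (g * h)⁻¹ = L.ι (emb (F (K x))) := by
    intro g h F K hF hK x
    rw [← hF, ← hK]; group
  obtain ⟨hinv, htrans, hfix, hsurj, j, hj⟩ := frobenius_shape b c hinj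
    (fun k hk => hword (m * (L.y ^ k.1 * m)) _ (mul_mem hm (mul_mem (hyN _) hm))
      (hcomp m _ _ _ hact (hcomp _ m _ _ (L.y_pow_conj k.1) hact)) hk)
    (fun k k' hk => hword (m * (L.y ^ k.1 * (m * (L.y ^ k'.1 * m)))) _
      (mul_mem hm (mul_mem (hyN _) (mul_mem hm (mul_mem (hyN _) hm))))
      (hcomp m _ _ _ hact (hcomp _ _ _ _ (L.y_pow_conj k.1) (hcomp m _ _ _ hact
        (hcomp _ m _ _ (L.y_pow_conj k'.1) hact)))) hk)
  have hminv : ∀ x, m⁻¹ * L.ι (emb x) * m⁻¹⁻¹ = L.ι (emb ((lmap 2 b c)^[20] x)) := fun x => by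
    conv_lhs => rw [← hinv x, ← hact]
    group
  have hyinv : ∀ x, L.y⁻¹ * L.ι (emb x) * L.y⁻¹⁻¹ = L.ι (emb (sp (sp x))) := fun x => by
    have h3 : sp (sp (sp x)) = x := sp_iter_three x
    conv_lhs => rw [← h3, ← L.y_conj]
    group
  refine ⟨⟨m, _, hm, ?_, rfl,
    fun x => sp (lmap 2 b c (sp (sp ((lmap 2 b c)^[20] x)))), ?_, htrans, hfix, hsurj, j, hj⟩⟩
  · rw [hmt, emb_values.2.2.1]
  · intro x
    have h := hcomp L.y _ _ _ L.y_conj (hcomp m _ _ _ hact (hcomp _ _ _ _ hyinv hminv))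
    simpa only [mul_assoc] using h x

end Loc

end Cfsg.Agent.H68.WeakJ1
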